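import Mathlib
import Cfsg.Agent.Lib.Transfer.PGroupNormal
import Cfsg.Agent.Lib.Transfer.PGroupFrattini

/-!
Two-groups of order at least `2 ^ 14` whose fourth centre has order `16`, with small Frattini subgroup of the
centralizer of the third centre.
-/

set_option autoImplicit false

namespace Cfsg.Lib.TwoGroup.BigCentre

open Subgroup
open scoped commutatorElement

variable (T : Type*) [Group T]

/-- The upper central series. -/
abbrev Z (i : ℕ) : Subgroup T := Subgroup.upperCentralSeries T i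

/-- The centralizer of the third centre. -/
abbrev W : Subgroup T := Subgroup.centralizer ((Z T 3 : Subgroup T) : Set T)

/-- The hypotheses. -/
structure Hyp : Prop where
  pg : IsPGroup 2 T
  big : 2 ^ 14 ≤ Nat.card T
  four : Nat.card (Z T 4) = 16
  small : Nat.card (frattini (W T)) ≤ 8
  good : ∀ U : Subgroup (W T), U.index ≤ 16 → frattini (W T) ≤ U

variable {T} [Finite T]

theorem mem_succ {i : ℕ} {x : T} : x ∈ Z T (i + 1) ↔ ∀ g : T, g * x * g⁻¹ * x⁻¹ ∈ Z T i := by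
  have e : ∀ g : T, g * x * g⁻¹ * x⁻¹ = ⁅x, g⁆⁻¹ := fun g => by rw [commutatorElement_def]; group
  rw [Subgroup.mem_upperCentralSeries_succ_iff]
  exact forall_congr' fun g => by rw [e, inv_mem_iff]

theorem card_Z (h : Hyp T) {i : ℕ} (hi : i ≤ 4) : Nat.card (Z T i) = 2 ^ i := by
  haveI : Fact (Nat.Prime 2) := ⟨Nat.prime_two⟩
  have hlt : ∀ j, j < 4 → Nat.card (Z T j) < Nat.card (Z T (j + 1)) := by
    intro j hj
    have hne : Z T j < ⊤ := lt_top_iff_ne_top.2 fun htop => by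
      have h1 := Subgroup.card_le_of_le (Subgroup.upperCentralSeries_mono (G := T) hj.le)
      rw [show Subgroup.upperCentralSeries T j = ⊤ from htop, Subgroup.card_top] at h1
      have := h.four
      have := h.big
      change Nat.card T ≤ Nat.card (Z T 4) at h1
      omega
    obtain ⟨B, b, -, -, -, -, -, hb, -, hbg⟩ := Cfsg.Lib.Transfer.exists_normal_step h.pg (Z T j) ⊤ hne
    have hlt' : Z T j < Z T (j + 1) :=
      lt_of_le_of_ne (Subgroup.upperCentralSeries_mono (G := T) j.le_succ) fun e => hb (e ▸ mem_succ.2 hbg)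
    refine lt_of_le_of_ne (Subgroup.card_le_of_le hlt'.le) fun e => hlt'.ne ?_
    exact Subgroup.eq_of_le_of_card_ge hlt'.le e.ge
  have he : ∀ j, ∃ e, Nat.card (Z T j) = 2 ^ e := fun j => IsPGroup.iff_card.1 (h.pg.to_subgroup _)
  choose e he using he
  have hs : ∀ j, j < 4 → e j < e (j + 1) := fun j hj =>
    (Nat.pow_lt_pow_iff_right (by norm_num : 1 < 2)).1 (by rw [← he, ← he]; exact hlt j hj)
  have h4 : e 4 = 4 := by
    have := h.four
    rw [he 4] at this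
    exact Nat.pow_right_injective le_rfl this
  have h0 : e 0 = 0 := by
    have := he 0
    rw [show Z T 0 = ⊥ from Subgroup.upperCentralSeries_zero T, Subgroup.card_bot] at this
    exact (Nat.pow_eq_one.1 this.symm).resolve_left (by norm_num)
  have : e 0 < e 1 := hs 0 (by norm_num)
  have : e 1 < e 2 := hs 1 (by norm_num)
  have : e 2 < e 3 := hs 2 (by norm_num)
  have : e 3 < e 4 := hs 3 (by norm_num)
  rw [he i]
  congr 1
  interval_cases i <;> omega

theorem Z_lt (h : Hyp T) {i : ℕ} (hi : i < 4) : Z T i < Z T (i + 1) :=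
  lt_of_le_of_ne (Subgroup.upperCentralSeries_mono (G := T) i.le_succ) fun e => by
    have := congrArg (fun H : Subgroup T => Nat.card H) e
    simp only [card_Z h hi.le, card_Z h (i := i + 1) hi] at this
    exact absurd (Nat.pow_right_injective le_rfl this) (by omega)

theorem span (h : Hyp T) {i : ℕ} (hi : i < 4) {b : T} (hb : b ∈ Z T (i + 1)) (hb' : b ∉ Z T i) :
    Z T i ⊔ Subgroup.zpowers b = Z T (i + 1) := by
  haveI : Fact (Nat.Prime 2) := ⟨Nat.prime_two⟩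
  have hle : Z T i ⊔ Subgroup.zpowers b ≤ Z T (i + 1) := sup_le (Z_lt h hi).le (Subgroup.zpowers_le.2 hb)
  refine Subgroup.eq_of_le_of_card_ge hle ?_
  obtain ⟨e, he⟩ := IsPGroup.iff_card.1 (h.pg.to_subgroup (Z T i ⊔ Subgroup.zpowers b))
  have hlt : Nat.card (Z T i) < Nat.card ↥(Z T i ⊔ Subgroup.zpowers b) := by
    refine lt_of_le_of_ne (Subgroup.card_le_of_le le_sup_left) fun e' => hb' ?_
    have := Subgroup.eq_of_le_of_card_ge (le_sup_left : Z T i ≤ Z T i ⊔ Subgroup.zpowers b) e'.ge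
    rw [this]
    exact (le_sup_right : _ ≤ Z T i ⊔ Subgroup.zpowers b) (Subgroup.mem_zpowers b)
  rw [card_Z h hi.le, he] at hlt
  rw [card_Z h (i := i + 1) hi, he]
  exact Nat.pow_le_pow_right two_pos ((Nat.pow_lt_pow_iff_right (by norm_num : 1 < 2)).1 hlt)

theorem exists_mem_step (h : Hyp T) {i : ℕ} (N : Subgroup T) [N.Normal] (hle : Z T i < N) :
    ∃ b ∈ N, b ∈ Z T (i + 1) ∧ b ∉ Z T i := by
  haveI : Fact (Nat.Prime 2) := ⟨Nat.prime_two⟩
  obtain ⟨B, b, -, -, hBN, -, hbB, hb, -, hbg⟩ := Cfsg.Lib.Transfer.exists_normal_step h.pg (Z T i) N hle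
  exact ⟨b, hBN hbB, mem_succ.2 hbg, hb⟩

theorem normal_cases (h : Hyp T) (N : Subgroup T) [N.Normal] :
    ∀ i, i ≤ 4 → Z T i ≤ N ∨ ∃ j, j < i ∧ N = Z T j := by
  intro i
  induction i with
  | zero => exact fun _ => Or.inl (by rw [show Z T 0 = ⊥ from Subgroup.upperCentralSeries_zero T]; exact bot_le)
  | succ i ih =>
    intro hi
    rcases ih (by omega) with hle | ⟨j, hj, rfl⟩
    · by_cases he : N = Z T i
      · exact Or.inr ⟨i, i.lt_succ_self, he⟩
      · obtain ⟨b, hbN, hb, hb'⟩ := exists_mem_step h N (lt_of_le_of_ne hle (Ne.symm he))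
        left
        rw [← span h (by omega) hb hb']
        exact sup_le hle (Subgroup.zpowers_le.2 hbN)
    · exact Or.inr ⟨j, by omega, rfl⟩

/-- Elements generating the successive factors. -/
theorem exists_gens (h : Hyp T) :
    ∃ z₂ z₃ : T, z₂ ∈ Z T 2 ∧ z₂ ∉ Z T 1 ∧ z₃ ∈ Z T 3 ∧ z₃ ∉ Z T 2 ∧
      ∀ t : T, t ∈ W T ↔ t * z₂ = z₂ * t ∧ t * z₃ = z₃ * t := by
  obtain ⟨z₂, hz₂, hz₂'⟩ := SetLike.exists_of_lt (Z_lt h (i := 1) (by norm_num))
  obtain ⟨z₃, hz₃, hz₃'⟩ := SetLike.exists_of_lt (Z_lt h (i := 2) (by norm_num))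
  refine ⟨z₂, z₃, hz₂, hz₂', hz₃, hz₃', fun t => ⟨fun ht => ?_, fun ⟨h2, h3⟩ => ?_⟩⟩
  · have hc := Subgroup.mem_centralizer_iff.1 ht
    exact ⟨(hc z₂ (Subgroup.upperCentralSeries_mono (G := T) (by norm_num : 2 ≤ 3) hz₂)).symm, (hc z₃ hz₃).symm⟩
  · have hle : Z T 3 ≤ Subgroup.centralizer ({t} : Set T) := by
      rw [← span h (i := 2) (by norm_num) hz₃ hz₃', ← span h (i := 1) (by norm_num) hz₂ hz₂']
      refine sup_le (sup_le ?_ ?_) ?_
      · rw [Z, Subgroup.upperCentralSeries_one]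
        exact Subgroup.center_le_centralizer _
      · exact Subgroup.zpowers_le.2 (Subgroup.mem_centralizer_singleton_iff.2 h2.symm)
      · exact Subgroup.zpowers_le.2 (Subgroup.mem_centralizer_singleton_iff.2 h3.symm)
    exact Subgroup.mem_centralizer_iff.2 fun z hz => Subgroup.mem_centralizer_singleton_iff.1 (hle hz)

/-- The index of `W` is at most `8`, and the action on the third centre is as large as possible if it equals `8`. -/
theorem index_W (h : Hyp T) {z₂ z₃ : T} (hz₂ : z₂ ∈ Z T 2) (hz₃ : z₃ ∈ Z T 3)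
    (hW : ∀ t : T, t ∈ W T ↔ t * z₂ = z₂ * t ∧ t * z₃ = z₃ * t) :
    (W T).index ≤ 8 ∧ ((W T).index = 8 → ∀ a ∈ Z T 1, ∀ b ∈ Z T 2,
      ∃ t : T, t * z₂ * t⁻¹ * z₂⁻¹ = a ∧ t * z₃ * t⁻¹ * z₃⁻¹ = b) := by
  let f : T ⧸ W T → Z T 1 × Z T 2 := fun q =>
    (⟨q.out * z₂ * q.out⁻¹ * z₂⁻¹, mem_succ.1 hz₂ _⟩, ⟨q.out * z₃ * q.out⁻¹ * z₃⁻¹, mem_succ.1 hz₃ _⟩)
  have hinj : Function.Injective f := by
    intro q r e
    have e2 : q.out * z₂ * q.out⁻¹ = r.out * z₂ * r.out⁻¹ := mul_right_cancel (congrArg (fun p => (p.1 : T)) e)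
    have e3 : q.out * z₃ * q.out⁻¹ = r.out * z₃ * r.out⁻¹ := mul_right_cancel (congrArg (fun p => (p.2 : T)) e)
    have key : ∀ z : T, q.out * z * q.out⁻¹ = r.out * z * r.out⁻¹ → q.out⁻¹ * r.out * z = z * (q.out⁻¹ * r.out) := by
      intro z hz
      calc q.out⁻¹ * r.out * z = q.out⁻¹ * (r.out * z * r.out⁻¹) * r.out := by group
        _ = q.out⁻¹ * (q.out * z * q.out⁻¹) * r.out := by rw [hz]
        _ = z * (q.out⁻¹ * r.out) := by group
    rw [← QuotientGroup.out_eq' q, ← QuotientGroup.out_eq' r, QuotientGroup.eq]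
    exact (hW _).2 ⟨key z₂ e2, key z₃ e3⟩
  have hcard : Nat.card (Z T 1 × Z T 2) = 8 := by
    rw [Nat.card_prod, card_Z h (by norm_num), card_Z h (by norm_num)]
    norm_num
  refine ⟨?_, fun h8 a ha b hb => ?_⟩
  · rw [Subgroup.index_eq_card, ← hcard]
    exact Nat.card_le_card_of_injective f hinj
  · obtain ⟨q, hq⟩ := (hinj.bijective_of_nat_card_le (by rw [hcard, ← h8, Subgroup.index_eq_card])).2 (⟨a, ha⟩, ⟨b, hb⟩)
    exact ⟨q.out, congrArg (fun p => (p.1 : T)) hq, congrArg (fun p => (p.2 : T)) hq⟩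

instance W_normal : (W T).Normal := Subgroup.normal_centralizer

/-- The coordinate model of `W` modulo its Frattini subgroup. -/
theorem exists_model (h : Hyp T) :
    (W T).index = 8 ∧ Nat.card (W T) = 2 ^ 11 ∧ Nat.card T = 2 ^ 14 ∧
      (frattini (W T)).map (W T).subtype = Z T 3 ∧ Z T 4 ≤ W T ∧
      ∃ ψ : W T → (T ⧸ W T → ZMod 2), (∀ v w, ψ (v * w) = ψ v + ψ w) ∧
        (∀ w : W T, ψ w = 0 ↔ (w : T) ∈ Z T 3) ∧ Function.Surjective ψ ∧
        (∀ (t : T) (w : W T) (hw : t * (w : T) * t⁻¹ ∈ W T) (q : T ⧸ W T),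
          ψ ⟨t * (w : T) * t⁻¹, hw⟩ q = ψ w (q * (t : T ⧸ W T))) ∧
        ∀ b : W T, (b : T) ∈ Z T 4 → (b : T) ∉ Z T 3 → ∀ q, ψ b q = 1 := by
  classical
  haveI : Fact (Nat.Prime 2) := ⟨Nat.prime_two⟩
  obtain ⟨z₂, z₃, hz₂, -, hz₃, -, hW⟩ := exists_gens h
  have hidx := (index_W h hz₂ hz₃ hW).1
  have hWp : IsPGroup 2 (W T) := h.pg.to_subgroup _
  set Φ := (frattini (W T)).map (W T).subtype with hΦ
  haveI hΦn : Φ.Normal := ConjAct.normal_of_characteristic_of_normal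
  have hΦcard : Nat.card Φ ≤ 8 := by
    rw [hΦ, Subgroup.card_map_of_injective (W T).subtype_injective]
    exact h.small
  obtain ⟨k, hk, hΦk⟩ : ∃ k, k < 4 ∧ Φ = Z T k := (normal_cases h Φ 4 le_rfl).resolve_left fun hle => by
    have := Subgroup.card_le_of_le hle
    rw [card_Z h le_rfl] at this
    omega
  have hTW : Nat.card (W T) * (W T).index = Nat.card T := (W T).card_mul_index
  have hlt : Z T k < W T := by
    refine lt_of_le_of_ne (hΦk ▸ Subgroup.map_subtype_le _) fun e => ?_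
    have h1 : Nat.card (W T) = 2 ^ k := by rw [← e, card_Z h hk.le]
    have h2 : (2 : ℕ) ^ k ≤ 2 ^ 3 := Nat.pow_le_pow_right two_pos (by omega)
    have h3 : Nat.card (W T) * (W T).index ≤ 2 ^ 3 * 8 := Nat.mul_le_mul (h1 ▸ h2) hidx
    have := h.big
    omega
  obtain ⟨b₀, hb₀W, hb₀, hb₀'⟩ := exists_mem_step h (W T) hlt
  have hcomm : commutator (W T) ≤ frattini (W T) := Cfsg.Lib.Transfer.commutator_le_frattini hWp
  let _ : CommGroup (W T ⧸ frattini (W T)) := { (inferInstance : Group (W T ⧸ frattini (W T))) with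
    mul_comm := (Subgroup.Normal.quotient_commutative_iff_commutator_le.2 hcomm).is_comm.comm }
  let _ : Module (ZMod 2) (Additive (W T ⧸ frattini (W T))) := AddCommGroup.zmodModule fun v => by
    obtain ⟨y, hy⟩ := QuotientGroup.mk_surjective v.toMul
    show Additive.ofMul (v.toMul ^ 2) = 0
    rw [← hy, ← QuotientGroup.mk_pow, (QuotientGroup.eq_one_iff _).2 (Cfsg.Lib.Transfer.pow_mem_frattini hWp y)]
    rfl
  set v₀ : Additive (W T ⧸ frattini (W T)) := Additive.ofMul ((⟨b₀, hb₀W⟩ : W T) : W T ⧸ frattini (W T)) with hv₀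
  have hv₀0 : v₀ ∉ (⊥ : Submodule (ZMod 2) (Additive (W T ⧸ frattini (W T)))) := fun e => by
    rw [Submodule.mem_bot] at e
    exact hb₀' (hΦk ▸ ⟨_, (QuotientGroup.eq_one_iff _).1 e, rfl⟩)
  obtain ⟨f₀, hf₀, -⟩ := Submodule.exists_dual_map_eq_bot_of_notMem (R := ZMod 2) hv₀0 inferInstance
  let f : W T → ZMod 2 := fun w => f₀ (Additive.ofMul (w : W T ⧸ frattini (W T)))
  have hfadd : ∀ v w, f (v * w) = f v + f w := fun v w => by
    simp only [f, QuotientGroup.mk_mul, ofMul_mul, map_add]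
  have hfΦ : ∀ w, w ∈ frattini (W T) → f w = 0 := fun w hw => by
    simp only [f, (QuotientGroup.eq_one_iff w).2 hw, ofMul_one, map_zero]
  have hf1 : f 1 = 0 := hfΦ 1 (one_mem _)
  have hfb : f ⟨b₀, hb₀W⟩ = 1 := by
    have hall : ∀ x : ZMod 2, x ≠ 0 → x = 1 := fun x hx => by
      fin_cases x
      · exact absurd rfl hx
      · rfl
    exact hall _ hf₀
  have hconj : ∀ (t : T) (w : W T), t * (w : T) * t⁻¹ ∈ W T := fun t w => W_normal.conj_mem _ w.2 t
  have hfwell : ∀ (t t' : T) (w : W T), (t : T ⧸ W T) = t' → f ⟨t * (w : T) * t⁻¹, hconj t w⟩ = f ⟨t' * (w : T) * t'⁻¹, hconj t' w⟩ := by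
    intro t t' w e
    have hm : t' * t⁻¹ ∈ W T := by
      have := W_normal.conj_mem _ (QuotientGroup.eq.1 e) t
      rwa [show t * (t⁻¹ * t') * t⁻¹ = t' * t⁻¹ by group] at this
    have e' : (⟨t' * (w : T) * t'⁻¹, hconj t' w⟩ : W T) = ⟨t' * t⁻¹, hm⟩ * ⟨t * (w : T) * t⁻¹, hconj t w⟩ * (⟨t' * t⁻¹, hm⟩ : W T)⁻¹ :=
      Subtype.ext (by show t' * (w : T) * t'⁻¹ = t' * t⁻¹ * (t * (w : T) * t⁻¹) * (t' * t⁻¹)⁻¹; group)
    rw [e', hfadd, hfadd]
    have hinv : f (⟨t' * t⁻¹, hm⟩ : W T)⁻¹ + f ⟨t' * t⁻¹, hm⟩ = 0 := by rw [← hfadd, inv_mul_cancel, hf1]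
    linear_combination -hinv
  let ψ : W T → (T ⧸ W T → ZMod 2) := fun w q => f ⟨q.out * (w : T) * q.out⁻¹, hconj q.out w⟩
  have hψadd : ∀ v w, ψ (v * w) = ψ v + ψ w := fun v w => funext fun q => by
    show f _ = f _ + f _
    rw [← hfadd]
    exact congrArg f (Subtype.ext (show q.out * ((v : T) * w) * q.out⁻¹ = q.out * v * q.out⁻¹ * (q.out * w * q.out⁻¹) by group))
  have hψeq : ∀ (t : T) (w : W T), ψ w (t : T ⧸ W T) = f ⟨t * (w : T) * t⁻¹, hconj t w⟩ := fun t w =>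
    hfwell _ t w (QuotientGroup.out_eq' _)
  have hψt : ∀ (t : T) (w : W T) (hw : t * (w : T) * t⁻¹ ∈ W T) (q : T ⧸ W T),
      ψ ⟨t * (w : T) * t⁻¹, hw⟩ q = ψ w (q * (t : T ⧸ W T)) := by
    intro t w hw q
    obtain ⟨u, rfl⟩ := QuotientGroup.mk_surjective q
    rw [hψeq, ← QuotientGroup.mk_mul, hψeq]
    exact congrArg f (Subtype.ext (show u * (t * (w : T) * t⁻¹) * u⁻¹ = u * t * w * (u * t)⁻¹ by group))
  let Ψ : W T →* Multiplicative (T ⧸ W T → ZMod 2) :=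
    MonoidHom.mk' (fun w => Multiplicative.ofAdd (ψ w)) fun v w => by simp [hψadd]
  let K : Subgroup T := Ψ.ker.map (W T).subtype
  have hKn : K.Normal := ⟨by
    rintro _ ⟨w, hw, rfl⟩ t
    refine ⟨⟨t * (w : T) * t⁻¹, hconj t w⟩, ?_, rfl⟩
    have hw' : ψ w = 0 := hw
    show ψ _ = 0
    funext q
    rw [hψt, hw']
    rfl⟩
  have hΦK : Φ ≤ K := by
    rintro _ ⟨w, hw, rfl⟩
    refine ⟨w, ?_, rfl⟩
    show ψ w = 0
    funext q
    have hmem : q.out * (w : T) * q.out⁻¹ ∈ Φ := hΦn.conj_mem _ ⟨w, hw, rfl⟩ _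
    obtain ⟨w', hw', e⟩ := hmem
    exact hfΦ _ ((Subtype.ext e : w' = ⟨q.out * (w : T) * q.out⁻¹, hconj q.out w⟩) ▸ hw')
  have hKΦ : K = Φ := by
    by_contra hne
    haveI := hKn
    have hlt' : Z T k < K := hΦk ▸ lt_of_le_of_ne hΦK (Ne.symm hne)
    obtain ⟨b, hbK, hb, hb'⟩ := exists_mem_step h K hlt'
    obtain ⟨w, hw, rfl⟩ := hbK
    have hw1 : f w = 0 := by
      have h' : ψ w ((1 : T) : T ⧸ W T) = 0 := congrFun (show ψ w = 0 from hw) ((1 : T) : T ⧸ W T)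
      rw [hψeq] at h'
      simpa using h'
    have hsp := span h hk hb hb'
    rw [← hsp] at hb₀
    have hmap : Z T k ⊔ Subgroup.zpowers ((W T).subtype w) ≤
        (Subgroup.mk ⟨⟨{v : W T | f v = 0}, fun {a c} (ha : f a = 0) (hc : f c = 0) => (hfadd a c).trans (by rw [ha, hc, add_zero])⟩, hf1⟩
          (fun {a} (ha : f a = 0) => by
            have := hfadd a⁻¹ a
            rw [inv_mul_cancel, hf1, ha, add_zero] at this
            exact this.symm)).map (W T).subtype := by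
      refine sup_le ?_ (Subgroup.zpowers_le.2 ⟨w, hw1, rfl⟩)
      rw [← hΦk]
      rintro _ ⟨v, hv, rfl⟩
      exact ⟨v, hfΦ v hv, rfl⟩
    obtain ⟨v, hv, hvb⟩ := hmap hb₀
    have : v = ⟨b₀, hb₀W⟩ := Subtype.ext hvb
    rw [this] at hv
    exact one_ne_zero (hfb.symm.trans hv)
  have hker : Ψ.ker = frattini (W T) := Subgroup.map_injective (W T).subtype_injective hKΦ
  have hkerc : Nat.card Ψ.ker = 2 ^ k := by
    rw [hker, ← Subgroup.card_map_of_injective (W T).subtype_injective]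
    show Nat.card Φ = _
    rw [hΦk, card_Z h hk.le]
  have hfun : Nat.card (Multiplicative (T ⧸ W T → ZMod 2)) = 2 ^ (W T).index := by
    rw [Nat.card_congr Multiplicative.toAdd, Nat.card_fun, Nat.card_zmod, ← Subgroup.index_eq_card]
  have hWcard : Nat.card (W T) = 2 ^ k * Nat.card Ψ.range := by
    rw [← hkerc, ← Subgroup.index_ker, Subgroup.card_mul_index]
  have hr : Nat.card Ψ.range ≤ 2 ^ (W T).index := hfun ▸ Subgroup.card_le_card_group _
  obtain ⟨j, hj⟩ : ∃ j, (W T).index = 2 ^ j :=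
    let ⟨j, hj⟩ := IsPGroup.iff_card.1 (h.pg.to_quotient (W T)); ⟨j, (Subgroup.index_eq_card _).trans hj⟩
  have hj3 : j = 3 ∧ k = 3 ∧ Nat.card Ψ.range = 2 ^ 8 := by
    have hj3 : j ≤ 3 := by
      rw [hj] at hidx
      exact (Nat.pow_le_pow_iff_right (by norm_num : 1 < 2)).1 (show 2 ^ j ≤ 2 ^ 3 by norm_num; exact hidx)
    have hbig := h.big
    rw [← hTW, hWcard, hj] at hbig
    rw [hj] at hr
    have hlek : 2 ^ k ≤ 2 ^ 3 := Nat.pow_le_pow_right two_pos (by omega)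
    interval_cases j <;> interval_cases k <;> norm_num at hbig hr ⊢ <;> omega
  obtain ⟨rfl, rfl, hrange⟩ := hj3
  have hidx8 : (W T).index = 8 := hj.trans (by norm_num)
  have hZ4 : Z T 4 ≤ W T := by
    rw [← span h (i := 3) (by norm_num) hb₀ hb₀']
    exact sup_le hlt.le (Subgroup.zpowers_le.2 hb₀W)
  have hiff : ∀ w : W T, ψ w = 0 ↔ (w : T) ∈ Z T 3 := fun w => by
    rw [← hΦk, hΦ]
    refine ⟨fun e => ⟨w, hker ▸ (e : w ∈ Ψ.ker), rfl⟩, ?_⟩
    rintro ⟨v, hv, e⟩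
    obtain rfl : v = w := Subtype.ext e
    exact (hker.ge hv : v ∈ Ψ.ker)
  refine ⟨hidx8, ?_, ?_, hΦk, hZ4, ψ, hψadd, hiff, ?_, hψt, ?_⟩
  · rw [hWcard, hrange]; norm_num
  · rw [← hTW, hWcard, hrange, hidx8]; norm_num
  · intro g
    have htop : Ψ.range = ⊤ := Subgroup.eq_top_of_card_eq _ (by rw [hrange, hfun, hidx8])
    obtain ⟨w, hw⟩ := htop.ge (Subgroup.mem_top (Multiplicative.ofAdd g))
    exact ⟨w, hw⟩
  · intro b hb hb' q
    obtain ⟨u, rfl⟩ := QuotientGroup.mk_surjective q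
    rw [hψeq]
    have hmem : u * (b : T) * u⁻¹ ∈ Z T 4 ∧ u * (b : T) * u⁻¹ ∉ Z T 3 := by
      refine ⟨(inferInstance : (Z T 4).Normal).conj_mem _ hb u, fun e => hb' ?_⟩
      have := (inferInstance : (Z T 3).Normal).conj_mem _ e u⁻¹
      simpa [mul_assoc] using this
    have hd : u * (b : T) * u⁻¹ * b₀⁻¹ ∈ Z T 3 := by
      have h1 := hmem.1
      rw [← span h (i := 3) (by norm_num) hb₀ hb₀', ← SetLike.mem_coe, Subgroup.normal_mul] at h1
      obtain ⟨x, hx, y, hy, hxy⟩ := h1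
      obtain ⟨n, rfl⟩ := Subgroup.mem_zpowers_iff.1 hy
      rcases Int.even_or_odd n with ⟨m, rfl⟩ | ⟨m, rfl⟩
      · exfalso
        have hsq : b₀ * b₀ ∈ Z T 3 := by
          rw [← hΦk, hΦ]
          exact ⟨(⟨b₀, hb₀W⟩ : W T) ^ 2, Cfsg.Lib.Transfer.pow_mem_frattini hWp _, by simp [pow_two]⟩
        refine hmem.2 (hxy ▸ mul_mem hx ?_)
        rw [zpow_add, ← (Commute.refl b₀).mul_zpow]
        exact zpow_mem hsq m
      · have hsq : b₀ * b₀ ∈ Z T 3 := by
          rw [← hΦk, hΦ]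
          exact ⟨(⟨b₀, hb₀W⟩ : W T) ^ 2, Cfsg.Lib.Transfer.pow_mem_frattini hWp _, by simp [pow_two]⟩
        rw [← hxy, zpow_add, zpow_one, mul_assoc, mul_inv_cancel_right, two_mul, zpow_add,
          ← (Commute.refl b₀).mul_zpow]
        exact mul_mem hx (zpow_mem hsq m)
    obtain ⟨w', hw', e⟩ : u * (b : T) * u⁻¹ * b₀⁻¹ ∈ Φ := hΦk.ge hd
    have e' : (⟨u * (b : T) * u⁻¹, hconj u b⟩ : W T) = w' * ⟨b₀, hb₀W⟩ :=
      Subtype.ext (show u * (b : T) * u⁻¹ = (W T).subtype w' * b₀ by rw [e, inv_mul_cancel_right])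
    rw [e', hfadd, hfΦ w' hw', hfb, zero_add]

end Cfsg.Lib.TwoGroup.BigCentre
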