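import Mathlib
import Cfsg.Agent.Lib.TwoGroup.BigCentre
import Cfsg.Agent.Lib.Transfer.Critical

/-!
Consequences of the coordinate model: structure, automorphisms of odd order, and uniqueness of `W`.
-/

set_option autoImplicit false

namespace Cfsg.Lib.TwoGroup.BigCentre

set_option linter.unusedSectionVars false

open Subgroup
open scoped commutatorElement

variable {T : Type*} [Group T] [Finite T]

theorem zmod_two_add : ∀ x : ZMod 2, x + x = 0 := by decide +kernel

theorem zmod_two_abab : ∀ a b : ZMod 2, a + b + a + b = 0 := by decide +kernel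

theorem pi_add_self {α : Type*} (f : α → ZMod 2) : f + f = 0 := funext fun _ => zmod_two_add _

theorem coset_two (h : Hyp T) {i : ℕ} (hi : i < 4) {a b : T} (ha : a ∈ Z T (i + 1)) (ha' : a ∉ Z T i)
    (hb : b ∈ Z T (i + 1)) (hb' : b ∉ Z T i) : a⁻¹ * b ∈ Z T i := by
  have hidx : ((Z T i).subgroupOf (Z T (i + 1))).index = 2 := by
    have h1 := ((Z T i).subgroupOf (Z T (i + 1))).card_mul_index
    rw [Nat.card_congr (Subgroup.subgroupOfEquivOfLe (Z_lt h hi).le).toEquiv, card_Z h hi.le,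
      card_Z h (i := i + 1) hi, pow_succ] at h1
    exact Nat.eq_of_mul_eq_mul_left (pow_pos two_pos i) h1
  exact (Subgroup.mul_mem_iff_of_index_two hidx (a := (⟨a, ha⟩ : Z T (i + 1))⁻¹) (b := ⟨b, hb⟩)).2
    ⟨fun h' => absurd ((Z T i).inv_mem_iff.1 h') ha', fun h' => absurd h' hb'⟩

theorem Z_one_central {a : T} (ha : a ∈ Z T 1) (g : T) : g * a = a * g := by
  rw [Z, Subgroup.upperCentralSeries_one] at ha
  exact Subgroup.mem_center_iff.1 ha g

/-- Elementary consequences. -/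
structure Model (T : Type*) [Group T] where
  ψ : W T → (T ⧸ W T → ZMod 2)
  add : ∀ v w, ψ (v * w) = ψ v + ψ w
  zero : ∀ w : W T, ψ w = 0 ↔ (w : T) ∈ Z T 3
  surj : Function.Surjective ψ
  act : ∀ (t : T) (w : W T) (hw : t * (w : T) * t⁻¹ ∈ W T) (q : T ⧸ W T),
    ψ ⟨t * (w : T) * t⁻¹, hw⟩ q = ψ w (q * (t : T ⧸ W T))
  top : ∀ b : W T, (b : T) ∈ Z T 4 → (b : T) ∉ Z T 3 → ∀ q, ψ b q = 1

theorem nonempty_model (h : Hyp T) : Nonempty (Model T) := by
  obtain ⟨-, -, -, -, -, ψ, h1, h2, h3, h4, h5⟩ := exists_model h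
  exact ⟨⟨ψ, h1, h2, h3, h4, h5⟩⟩

namespace Model

variable (M : Model T)
include M

theorem one : M.ψ 1 = 0 := by
  have h := M.add 1 1
  rw [mul_one] at h
  exact left_eq_add.1 h

theorem inv (w : W T) : M.ψ w⁻¹ = M.ψ w := by
  have h := M.add w⁻¹ w
  rw [inv_mul_cancel, M.one] at h
  calc M.ψ w⁻¹ = M.ψ w⁻¹ + (M.ψ w + M.ψ w) := by rw [pi_add_self, add_zero]
    _ = M.ψ w := by rw [← add_assoc, ← h, zero_add]

theorem sq_mem {w : T} (hw : w ∈ W T) : w * w ∈ Z T 3 := by
  have h := (M.zero (⟨w, hw⟩ * ⟨w, hw⟩)).1 (by rw [M.add, pi_add_self])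
  simpa only [Subgroup.coe_mul] using h

theorem comm_mem {v w : T} (hv : v ∈ W T) (hw : w ∈ W T) : v * w * v⁻¹ * w⁻¹ ∈ Z T 3 := by
  have h0 : M.ψ (⟨v, hv⟩ * ⟨w, hw⟩ * (⟨v, hv⟩ : W T)⁻¹ * (⟨w, hw⟩ : W T)⁻¹) = 0 := by
    rw [M.add, M.add, M.add, M.inv, M.inv]
    funext q
    exact zmod_two_abab _ _
  have h := (M.zero _).1 h0
  simpa only [Subgroup.coe_mul, Subgroup.coe_inv] using h

theorem eq_iff (v w : W T) : M.ψ v = M.ψ w ↔ (v : T) * (w : T)⁻¹ ∈ Z T 3 := by
  refine Iff.trans ?_ (M.zero (v * w⁻¹))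
  rw [M.add, M.inv]
  exact ⟨fun h => by rw [h, pi_add_self], fun h => by
    calc M.ψ v = M.ψ v + (M.ψ w + M.ψ w) := by rw [pi_add_self, add_zero]
      _ = M.ψ w := by rw [← add_assoc, h, zero_add]⟩

end Model

theorem Z_three_le_W (h : Hyp T) : Z T 3 ≤ W T := by
  obtain ⟨-, -, -, hΦ, -⟩ := exists_model h
  exact hΦ ▸ Subgroup.map_subtype_le _

theorem W_central {z w : T} (hz : z ∈ Z T 3) (hw : w ∈ W T) : z * w = w * z :=
  Subgroup.mem_centralizer_iff.1 hw z hz

/-- The third centre is elementary abelian and is the derived group of `W`. -/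
theorem elementary (h : Hyp T) :
    (∀ z ∈ Z T 3, z * z = 1) ∧ (commutator (W T)).map (W T).subtype = Z T 3 := by
  classical
  obtain ⟨-, -, -, hΦ, -⟩ := exists_model h
  obtain ⟨M⟩ := nonempty_model h
  haveI : Fact (Nat.Prime 2) := ⟨Nat.prime_two⟩
  have hWp : IsPGroup 2 (W T) := h.pg.to_subgroup _
  have hΦiff : ∀ w : W T, w ∈ frattini (W T) ↔ (w : T) ∈ Z T 3 := fun w => by
    rw [← hΦ]
    exact ⟨fun hw => ⟨w, hw, rfl⟩, fun ⟨v, hv, e⟩ => Subtype.ext e ▸ hv⟩
  have hcomm : commutator (W T) ≤ frattini (W T) := Cfsg.Lib.Transfer.commutator_le_frattini hWp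
  -- squares are products of commutators
  have hsq : ∀ a : W T, a * a ∈ commutator (W T) := by
    let A := Abelianization (W T)
    have hA : IsPGroup 2 A := hWp.to_quotient _
    have hA4 : ∀ a : A, ∃ c : A, a ^ 2 = (c ^ 2) ^ 2 := by
      by_contra! hne
      obtain ⟨a, ha⟩ := hne
      let F : Subgroup A := (powMonoidHom 4 : A →* A).range
      have haF : a ^ 2 ∉ F := fun ⟨c, hc⟩ => ha c (by rw [← pow_mul]; exact hc.symm)
      obtain ⟨U, ⟨hFU, haU⟩, hmax⟩ := (Set.toFinite {U : Subgroup A | F ≤ U ∧ a ^ 2 ∉ U}).exists_maximal ⟨F, le_rfl, haF⟩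
      have huniq : ∀ x : A ⧸ U, x ^ 2 = 1 → x ≠ 1 → x = (QuotientGroup.mk (a ^ 2) : A ⧸ U) := by
        intro x hx hx1
        obtain ⟨y, rfl⟩ := QuotientGroup.mk_surjective x
        have hy : y ∉ U := fun h' => hx1 ((QuotientGroup.eq_one_iff y).2 h')
        have hy2 : y ^ 2 ∈ U := (QuotientGroup.eq_one_iff _).1 hx
        have hmem : a ^ 2 ∈ U ⊔ Subgroup.zpowers y := by
          by_contra h'
          exact hy (hmax ⟨hFU.trans le_sup_left, h'⟩ le_sup_left ((le_sup_right : _ ≤ U ⊔ Subgroup.zpowers y) (Subgroup.mem_zpowers y)))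
        obtain ⟨u, hu, v, hv, huv⟩ := Subgroup.mem_sup.1 hmem
        obtain ⟨n, rfl⟩ := Subgroup.mem_zpowers_iff.1 hv
        rcases Int.even_or_odd n with ⟨m, rfl⟩ | ⟨m, rfl⟩
        · exfalso
          refine haU (huv ▸ mul_mem hu ?_)
          rw [zpow_add, ← (Commute.refl y).mul_zpow, ← pow_two]
          exact zpow_mem hy2 m
        · rw [← huv, QuotientGroup.mk_mul, (QuotientGroup.eq_one_iff u).2 hu, one_mul, QuotientGroup.mk_zpow,
            zpow_add, zpow_one, zpow_mul, zpow_ofNat, hx, one_zpow, one_mul]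
      have h4 : ∀ x : A ⧸ U, (x ^ 2) ^ 2 = 1 := by
        intro x
        obtain ⟨y, rfl⟩ := QuotientGroup.mk_surjective x
        rw [← pow_mul, ← QuotientGroup.mk_pow, QuotientGroup.eq_one_iff]
        exact hFU ⟨y, rfl⟩
      have hker : Nat.card (powMonoidHom 2 : A ⧸ U →* A ⧸ U).ker ≤ 2 := by
        calc Nat.card (powMonoidHom 2 : A ⧸ U →* A ⧸ U).ker ≤
              Nat.card ↥({1, (QuotientGroup.mk (a ^ 2) : A ⧸ U)} : Finset (A ⧸ U)) := by
              refine Nat.card_le_card_of_injective (fun x => ⟨x.1, ?_⟩) fun x y e => Subtype.ext (congrArg (fun z : ↥({1, (QuotientGroup.mk (a ^ 2) : A ⧸ U)} : Finset (A ⧸ U)) => (z : A ⧸ U)) e)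
              rcases eq_or_ne x.1 1 with e | e
              · simp [e]
              · simp [huniq x.1 x.2 e]
          _ ≤ 2 := by rw [Nat.card_eq_fintype_card, Fintype.card_coe]; exact Finset.card_le_two
      have hU : U.index ≤ 4 := by
        rw [Subgroup.index_eq_card, ← (powMonoidHom 2 : A ⧸ U →* A ⧸ U).ker.card_mul_index, Subgroup.index_ker]
        refine Nat.mul_le_mul hker ((Subgroup.card_le_of_le ?_).trans hker)
        rintro _ ⟨x, rfl⟩
        exact h4 x
      obtain ⟨w, hw⟩ := QuotientGroup.mk_surjective a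
      have hU' : (U.comap (Abelianization.of (G := W T))).index ≤ 16 := by
        rw [Subgroup.index_comap_of_surjective _ (show Function.Surjective (Abelianization.of (G := W T)) from QuotientGroup.mk'_surjective _)]
        omega
      have hmem := h.good _ hU' (Cfsg.Lib.Transfer.pow_mem_frattini hWp w)
      rw [Subgroup.mem_comap, map_pow] at hmem
      exact haU (by rwa [show Abelianization.of w = a from hw] at hmem)
    have hA2 : ∀ n : ℕ, ∀ a : A, ∃ c : A, a ^ 2 = c ^ (2 ^ (n + 1)) := by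
      intro n
      induction n with
      | zero => exact fun a => ⟨a, by rw [zero_add, pow_one]⟩
      | succ n ih =>
        intro a
        obtain ⟨c, hc⟩ := ih a
        obtain ⟨d, hd⟩ := hA4 c
        exact ⟨d, by rw [hc, pow_succ', pow_mul, hd, ← pow_mul, ← pow_mul, ← pow_succ', ← pow_succ']⟩
    intro w
    obtain ⟨n, hn⟩ := IsPGroup.iff_card.1 hA
    obtain ⟨c, hc⟩ := hA2 n (Abelianization.of w)
    have hw2 : Abelianization.of w ^ 2 = 1 := by
      rw [hc, pow_succ, pow_mul, ← hn, pow_card_eq_one', one_pow]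
    rw [← map_pow, pow_two] at hw2
    exact (QuotientGroup.eq_one_iff _).1 hw2
  have hle : frattini (W T) ≤ commutator (W T) :=
    Cfsg.Lib.Transfer.frattini_le_of_quotient (p := 2) le_rfl fun w => by rw [pow_two]; exact hsq w
  have heq : commutator (W T) = frattini (W T) := le_antisymm hcomm hle
  have hD : (commutator (W T)).map (W T).subtype = Z T 3 := by rw [heq]; exact hΦ
  refine ⟨?_, hD⟩
  intro z hz
  obtain ⟨w, hw, rfl⟩ := hD.ge hz
  rw [commutator_eq_closure] at hw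
  suffices w * w = 1 from congrArg Subtype.val this
  clear hz
  have hcen : ∀ v : W T, (v : T) ∈ Z T 3 → ∀ u : W T, v * u = u * v := fun v hv u => Subtype.ext (W_central hv u.2)
  induction hw using Subgroup.closure_induction with
  | mem v hv =>
    obtain ⟨a, b, rfl⟩ := hv
    have hc : ∀ x y : W T, ((x * y * x⁻¹ * y⁻¹ : W T) : T) ∈ Z T 3 := fun x y => M.comm_mem x.2 y.2
    have ha2 : ((a * a : W T) : T) ∈ Z T 3 := M.sq_mem a.2
    have e : a * b * a⁻¹ * b⁻¹ * (a * b * a⁻¹ * b⁻¹) = 1 := by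
      have h1 := hcen _ (hc a b) a
      have h2 := hcen _ ha2 b
      calc a * b * a⁻¹ * b⁻¹ * (a * b * a⁻¹ * b⁻¹) = (a * b * a⁻¹ * b⁻¹) * a * (b * a⁻¹ * b⁻¹) := by group
        _ = a * (a * b * a⁻¹ * b⁻¹) * (b * a⁻¹ * b⁻¹) := by rw [h1]
        _ = (a * a) * b * (a * a)⁻¹ * b⁻¹ := by group
        _ = b * (a * a) * (a * a)⁻¹ * b⁻¹ := by rw [h2]
        _ = 1 := by group
    rw [commutatorElement_def]
    exact e
  | one => rw [one_mul]
  | mul a b ha hb iha ihb =>
    have hab : b * a = a * b := by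
      refine hcen b ?_ a
      exact hD.le ⟨b, by rw [SetLike.mem_coe, commutator_eq_closure]; exact hb, rfl⟩
    calc a * b * (a * b) = a * (b * a) * b := by group
      _ = a * (a * b) * b := by rw [hab]
      _ = (a * a) * (b * b) := by group
      _ = 1 := by rw [iha, ihb, one_mul]
  | inv a ha iha => rw [← _root_.mul_inv_rev, iha, inv_one]

end Cfsg.Lib.TwoGroup.BigCentre
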