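import Mathlib
import Cfsg.Agent.Lib.TwoGroup.BigCentreFacts

/-!
Automorphisms of odd order are trivial.
-/

set_option autoImplicit false

namespace Cfsg.Lib.TwoGroup.BigCentre

open Subgroup

variable {T : Type*} [Group T] [Finite T]

theorem aut_trivial (h : Hyp T) (α : MulAut T) (m : ℕ) (hm : Odd m) (hαm : α ^ m = 1) : α = 1 := by
  classical
  haveI : Fact (Nat.Prime 2) := ⟨Nat.prime_two⟩
  have hcop : m.Coprime 2 := Nat.coprime_two_right.2 hm
  have hit : ∀ x, (α.toMonoidHom)^[m] x = x := by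
    have h' : ∀ (k : ℕ) (x : T), (α.toMonoidHom)^[k] x = (α ^ k) x := by
      intro k
      induction k with
      | zero => intro x; rfl
      | succ k ih => intro x; rw [Function.iterate_succ_apply', ih, pow_succ', MulAut.mul_apply]; rfl
    intro x
    rw [h', hαm, MulAut.one_apply]
  have htr : ∀ x : T, α (x⁻¹ * α x) = x⁻¹ * α x → α x = x := fun x hx =>
    Cfsg.Lib.Transfer.fixed_of_translate h.pg α.toMonoidHom hcop hit (g := x) (z := x⁻¹ * α x)
      (show α x = x * (x⁻¹ * α x) by group) hx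
  have hchar : ∀ i x, x ∈ Z T i → α x ∈ Z T i := fun i x hx =>
    (Subgroup.characteristic_iff_le_comap.1 (inferInstance : (Z T i).Characteristic) α) hx
  have hchar' : ∀ i x, α x ∈ Z T i → x ∈ Z T i := fun i x hx => by
    have h' : α.symm (α x) ∈ Z T i :=
      (Subgroup.characteristic_iff_le_comap.1 (inferInstance : (Z T i).Characteristic) α.symm) hx
    rwa [α.symm_apply_apply] at h'
  have hfix : ∀ i, i ≤ 4 → ∀ x ∈ Z T i, α x = x := by
    intro i
    induction i with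
    | zero =>
      intro _ x hx
      rw [show Z T 0 = ⊥ from Subgroup.upperCentralSeries_zero T, Subgroup.mem_bot] at hx
      rw [hx, map_one]
    | succ i ih =>
      intro hi x hx
      by_cases hxi : x ∈ Z T i
      · exact ih (by omega) x hxi
      · exact htr x (ih (by omega) _ (coset_two h (by omega) hx hxi (hchar _ x hx) fun h' => hxi (hchar' _ x h')))
  have h3 := hfix 3 (by norm_num)
  have hαW : ∀ t, t ∈ W T → α t ∈ W T := fun t ht => Subgroup.mem_centralizer_iff.2 fun z hz => by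
    have h' := congrArg α (Subgroup.mem_centralizer_iff.1 ht z hz)
    rwa [map_mul, map_mul, h3 z hz] at h'
  have hcoset : ∀ t : T, t⁻¹ * α t ∈ W T := fun t => Subgroup.mem_centralizer_iff.2 fun z hz => by
    have hz' : t * z * t⁻¹ ∈ Z T 3 := (inferInstance : (Z T 3).Normal).conj_mem _ hz t
    have h' := h3 _ hz'
    rw [map_mul, map_mul, map_inv, h3 z hz] at h'
    calc z * (t⁻¹ * α t) = t⁻¹ * (t * z * t⁻¹) * α t := by group
      _ = t⁻¹ * (α t * z * (α t)⁻¹) * α t := by rw [h']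
      _ = t⁻¹ * α t * z := by group
  obtain ⟨M⟩ := nonempty_model h
  obtain ⟨-, -, -, -, hZ4, -⟩ := exists_model h
  let αW : W T →* W T :=
    MonoidHom.mk' (fun w => ⟨α w, hαW w w.2⟩) fun a b => Subtype.ext (map_mul α (a : T) b)
  let K : Subgroup T :=
    { carrier := {x | ∃ (hx : x ∈ W T) (w : W T), M.ψ ⟨x, hx⟩ = M.ψ (αW w) + M.ψ w}
      one_mem' := ⟨one_mem _, 1, by rw [map_one, ← M.add, one_mul]; rfl⟩
      mul_mem' := by
        rintro a b ⟨ha, v, hv⟩ ⟨hb, w, hw⟩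
        refine ⟨mul_mem ha hb, v * w, ?_⟩
        rw [map_mul, M.add, M.add, show (⟨a * b, mul_mem ha hb⟩ : W T) = ⟨a, ha⟩ * ⟨b, hb⟩ from rfl, M.add, hv, hw]
        abel
      inv_mem' := by
        rintro a ⟨ha, v, hv⟩
        exact ⟨inv_mem ha, v, by rw [show (⟨a⁻¹, inv_mem ha⟩ : W T) = (⟨a, ha⟩ : W T)⁻¹ from rfl, M.inv]; exact hv⟩ }
  have hKn : K.Normal := ⟨by
    rintro x ⟨hx, w, hw⟩ t
    have ht : t * x * t⁻¹ ∈ W T := W_normal.conj_mem _ hx t
    have ht' : t * (w : T) * t⁻¹ ∈ W T := W_normal.conj_mem _ w.2 t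
    refine ⟨ht, ⟨t * (w : T) * t⁻¹, ht'⟩, funext fun q => ?_⟩
    have hαt : α t * (αW w : T) * (α t)⁻¹ ∈ W T := W_normal.conj_mem _ (αW w).2 _
    have e : αW ⟨t * (w : T) * t⁻¹, ht'⟩ = ⟨α t * (αW w : T) * (α t)⁻¹, hαt⟩ :=
      Subtype.ext (show α (t * (w : T) * t⁻¹) = α t * α (w : T) * (α t)⁻¹ by rw [map_mul, map_mul, map_inv])
    rw [M.act t ⟨x, hx⟩, Pi.add_apply, e, M.act, M.act, hw, Pi.add_apply,
      show ((α t : T) : T ⧸ W T) = (t : T ⧸ W T) from (QuotientGroup.eq.2 (hcoset t)).symm]⟩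
  have hK3 : Z T 3 ≤ K := fun z hz => by
    refine ⟨Z_three_le_W h hz, 1, ?_⟩
    rw [(M.zero _).2 hz, map_one, ← M.add, one_mul, M.one]
  have hKeq : K = Z T 3 := by
    by_contra hne
    haveI := hKn
    obtain ⟨b, ⟨hbW, w, hw⟩, hb, hb3⟩ := exists_mem_step h (i := 3) K (lt_of_le_of_ne hK3 (Ne.symm hne))
    have hzero : M.ψ (⟨b, hbW⟩⁻¹ * (αW w * w⁻¹)) = 0 := by
      rw [M.add, M.add, M.inv, M.inv, hw, pi_add_self]
    have hd := (M.zero _).1 hzero
    simp only [Subgroup.coe_mul, Subgroup.coe_inv] at hd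
    have h4 : (αW w : T) * (w : T)⁻¹ ∈ Z T 4 := by
      have := (Z T 4).mul_mem hb (Subgroup.upperCentralSeries_mono (G := T) (by norm_num) hd)
      rwa [mul_inv_cancel_left] at this
    have h4' : (w : T)⁻¹ * α (w : T) ∈ Z T 4 := by
      have := (inferInstance : (Z T 4).Normal).conj_mem _ h4 (w : T)⁻¹
      rwa [show (w : T)⁻¹ * ((αW w : T) * (w : T)⁻¹) * (w : T)⁻¹⁻¹ = (w : T)⁻¹ * α (w : T) by
        show (w : T)⁻¹ * (α (w : T) * (w : T)⁻¹) * (w : T)⁻¹⁻¹ = _
        group] at this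
    have hfixw := htr (w : T) (hfix 4 le_rfl _ h4')
    have hαw : αW w = w := Subtype.ext hfixw
    rw [hαw, pi_add_self] at hw
    have := congrFun hw 1
    rw [M.top ⟨b, hbW⟩ hb hb3] at this
    exact one_ne_zero this
  have hWfix : ∀ w, w ∈ W T → α w = w := fun w hw => by
    have hmem : w⁻¹ * α w ∈ K :=
      ⟨mul_mem (inv_mem hw) (hαW w hw), ⟨w, hw⟩, by
        rw [show (⟨w⁻¹ * α w, mul_mem (inv_mem hw) (hαW w hw)⟩ : W T) = (⟨w, hw⟩ : W T)⁻¹ * αW ⟨w, hw⟩ from rfl,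
          M.add, M.inv, add_comm]⟩
    rw [hKeq] at hmem
    exact htr w (h3 _ hmem)
  exact MulEquiv.ext fun t => htr t (hWfix _ (hcoset t))

end Cfsg.Lib.TwoGroup.BigCentre
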