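import Mathlib
import Cfsg.Agent.Lib.TwoGroup.BigCentreFacts

/-!
The quotient by `W` and the centre of `W`.
-/

set_option autoImplicit false

namespace Cfsg.Lib.TwoGroup.BigCentre

open Subgroup
open scoped commutatorElement

/-- The homomorphism from the dihedral group of order eight given by two generators. -/
def dihedralHom {G : Type*} [Group G] (R S : G) (hR : R ^ 4 = 1) (hS : S * S = 1) (hRS : S * R * S = R⁻¹) :
    DihedralGroup 4 →* G :=
  MonoidHom.mk' (fun x => match x with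
    | .r i => R ^ i.val
    | .sr i => S * R ^ i.val) (by
    have hpow : ∀ a b : ℕ, a % 4 = b % 4 → R ^ a = R ^ b := fun a b h => by
      rw [← pow_mul_pow_sub (a := R) (le_refl a)]
      simp only [Nat.sub_self, pow_zero, mul_one]
      rw [← Nat.div_add_mod a 4, ← Nat.div_add_mod b 4, pow_add, pow_add, pow_mul, pow_mul, hR, one_pow, one_pow, h]
    have hadd : ∀ i j : ZMod 4, R ^ (i + j).val = R ^ i.val * R ^ j.val := fun i j => by
      rw [← pow_add]
      exact hpow _ _ (by rw [ZMod.val_add, Nat.mod_mod])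
    have hsub : ∀ i j : ZMod 4, R ^ (j - i).val = (R ^ i.val)⁻¹ * R ^ j.val := fun i j => by
      rw [eq_inv_mul_iff_mul_eq, ← hadd, add_sub_cancel]
    have hconj : ∀ n : ℕ, S * R ^ n * S = (R ^ n)⁻¹ := fun n => by
      have hS' : S⁻¹ = S := inv_eq_of_mul_eq_one_right hS
      calc S * R ^ n * S = S * R ^ n * S⁻¹ := by rw [hS']
        _ = (S * R * S⁻¹) ^ n := (conj_pow).symm
        _ = _ := by rw [hS', hRS, inv_pow]
    rintro (i | i) (j | j)
    · exact hadd i j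
    · show S * R ^ (j - i).val = R ^ i.val * (S * R ^ j.val)
      rw [hsub, ← hconj]
      simp only [← mul_assoc]
      rw [hS, one_mul]
    · show S * R ^ (i + j).val = S * R ^ i.val * R ^ j.val
      rw [hadd, mul_assoc]
    · show R ^ (j - i).val = S * R ^ i.val * (S * R ^ j.val)
      rw [hsub, ← hconj]
      simp only [mul_assoc])

theorem dihedralHom_sr_zero {G : Type*} [Group G] (R S : G) (hR : R ^ 4 = 1) (hS : S * S = 1)
    (hRS : S * R * S = R⁻¹) : dihedralHom R S hR hS hRS (.sr 0) = S := by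
  show S * R ^ (0 : ZMod 4).val = S
  simp

variable {T : Type*} [Group T] [Finite T]

/-- The quotient by `W` is dihedral of order eight. -/
theorem quotient_equiv (h : Hyp T) : Nonempty (T ⧸ W T ≃* DihedralGroup 4) := by
  classical
  haveI : Fact (Nat.Prime 2) := ⟨Nat.prime_two⟩
  obtain ⟨z₂, z₃, hz₂, hz₂', hz₃, hz₃', hW⟩ := exists_gens h
  have hidx := (exists_model h).1
  have hel := (elementary h).1
  obtain ⟨z₁, hz₁, hz₁'⟩ := SetLike.exists_of_lt (Z_lt h (i := 0) (by norm_num))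
  have hz1ne : z₁ ≠ 1 := fun e => hz₁' (e ▸ one_mem _)
  have h13 : z₁ ∈ Z T 3 := Subgroup.upperCentralSeries_mono (G := T) (by norm_num) hz₁
  have h23 : z₂ ∈ Z T 3 := Subgroup.upperCentralSeries_mono (G := T) (by norm_num) hz₂
  obtain ⟨s, hs2, hs3⟩ := (index_W h hz₂ hz₃ hW).2 hidx z₁ hz₁ 1 (one_mem _)
  obtain ⟨g, hg2, hg3⟩ := (index_W h hz₂ hz₃ hW).2 hidx 1 (one_mem _) z₂ hz₂
  have es2 : s * z₂ * s⁻¹ = z₁ * z₂ := mul_inv_eq_iff_eq_mul.1 hs2
  have es3 : s * z₃ * s⁻¹ = z₃ := (mul_inv_eq_iff_eq_mul.1 hs3).trans (one_mul _)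
  have eg2 : g * z₂ * g⁻¹ = z₂ := (mul_inv_eq_iff_eq_mul.1 hg2).trans (one_mul _)
  have eg3 : g * z₃ * g⁻¹ = z₂ * z₃ := mul_inv_eq_iff_eq_mul.1 hg3
  have ec : ∀ t, t * z₁ * t⁻¹ = z₁ := fun t => by rw [Z_one_central hz₁ t, mul_inv_cancel_right]
  set cs := (MulAut.conj s : MulAut T) with hcs
  set cg := (MulAut.conj g : MulAut T) with hcg
  have as2 : cs z₂ = z₁ * z₂ := es2
  have as3 : cs z₃ = z₃ := es3
  have ag2 : cg z₂ = z₂ := eg2
  have ag3 : cg z₃ = z₂ * z₃ := eg3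
  have asc : cs z₁ = z₁ := ec s
  have agc : cg z₁ = z₁ := ec g
  have hmem : ∀ t : T, MulAut.conj t z₂ = z₂ → MulAut.conj t z₃ = z₃ → t ∈ W T := fun t h1 h2 =>
    (hW t).2 ⟨mul_inv_eq_iff_eq_mul.1 h1, mul_inv_eq_iff_eq_mul.1 h2⟩
  have hnot : ∀ t : T, t ∈ W T → MulAut.conj t z₂ = z₂ ∧ MulAut.conj t z₃ = z₃ := fun t ht =>
    ⟨mul_inv_eq_iff_eq_mul.2 ((hW t).1 ht).1, mul_inv_eq_iff_eq_mul.2 ((hW t).1 ht).2⟩
  let π := QuotientGroup.mk' (W T)
  have hπ : ∀ t : T, π t = 1 ↔ t ∈ W T := fun t => QuotientGroup.eq_one_iff t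
  have e11 := hel z₁ h13
  have e22 := hel z₂ h23
  have hr2 : MulAut.conj ((s * g) * (s * g)) z₂ = z₂ := by
    simp only [map_mul, MulAut.mul_apply, ← hcs, ← hcg, ag2, as2, agc, asc]
    rw [← mul_assoc, e11, one_mul]
  have hr3 : MulAut.conj ((s * g) * (s * g)) z₃ = z₁ * z₃ := by
    simp only [map_mul, MulAut.mul_apply, ← hcs, ← hcg, ag2, ag3, as2, as3, agc, asc]
    calc z₁ * (z₁ * z₂) * (z₁ * z₂ * z₃) = z₁ * z₁ * z₂ * z₁ * z₂ * z₃ := by group
      _ = z₂ * z₁ * z₂ * z₃ := by rw [e11, one_mul]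
      _ = z₁ * z₂ * z₂ * z₃ := by rw [Z_one_central hz₁ z₂]
      _ = z₁ * z₃ := by rw [mul_assoc z₁ z₂ z₂, e22, mul_one]
  have hS : π s * π s = 1 := by
    rw [← map_mul, hπ]
    refine hmem _ ?_ ?_
    · rw [map_mul, MulAut.mul_apply, as2, map_mul, asc, as2, ← mul_assoc, e11, one_mul]
    · rw [map_mul, MulAut.mul_apply, as3, as3]
  have hG : π g * π g = 1 := by
    rw [← map_mul, hπ]
    refine hmem _ ?_ ?_
    · rw [map_mul, MulAut.mul_apply, ag2, ag2]
    · rw [map_mul, MulAut.mul_apply, ag3, map_mul, ag2, ag3, ← mul_assoc, e22, one_mul]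
  have hR : π (s * g) ^ 4 = 1 := by
    rw [← map_pow, hπ, show (s * g) ^ 4 = (s * g) * (s * g) * ((s * g) * (s * g)) by simp [pow_succ, mul_assoc]]
    refine hmem _ ?_ ?_
    · rw [map_mul, MulAut.mul_apply, hr2, hr2]
    · rw [map_mul, MulAut.mul_apply, hr3, map_mul, hr3]
      have : MulAut.conj ((s * g) * (s * g)) z₁ = z₁ := ec _
      rw [this, ← mul_assoc, e11, one_mul]
  have hSR : π s * π (s * g) * π s = (π (s * g))⁻¹ := by
    rw [map_mul, _root_.mul_inv_rev, inv_eq_of_mul_eq_one_right hS, inv_eq_of_mul_eq_one_right hG, ← mul_assoc, hS,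
      one_mul]
  set f := dihedralHom (π (s * g)) (π s) hR hS hSR with hf
  have hr2W : π (s * g) * π (s * g) ≠ 1 := fun e => by
    rw [← map_mul, hπ] at e
    have := (hnot _ e).2
    rw [hr3, mul_eq_right] at this
    exact hz1ne this
  have hsW : π s ≠ 1 := fun e => by
    have := (hnot _ ((hπ s).1 e)).1
    rw [← hcs, as2, mul_eq_right] at this
    exact hz1ne this
  have hgW : π g ≠ 1 := fun e => by
    have := (hnot _ ((hπ g).1 e)).2
    rw [← hcg, ag3, mul_eq_right] at this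
    exact hz₂' (this ▸ one_mem _)
  have hinj : Function.Injective f := by
    rw [← MonoidHom.ker_eq_bot_iff, eq_bot_iff]
    intro x hx
    rw [Subgroup.mem_bot]
    have hx' : f x = 1 := hx
    have h4 : π (s * g) * π (s * g) * π (s * g) = (π (s * g))⁻¹ := by
      rw [eq_inv_iff_mul_eq_one]; simpa [pow_succ, mul_assoc] using hR
    rcases x with i | i <;> fin_cases i
    · rfl
    · exact absurd (show π (s * g) = 1 by simpa only [pow_one] using (show π (s * g) ^ 1 = 1 from hx')) fun e => hr2W (by rw [e, one_mul])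
    · exact absurd (show π (s * g) ^ 2 = 1 from hx') fun e => hr2W (by rwa [← pow_two])
    · exact absurd (show π (s * g) ^ 3 = 1 from hx') fun e => hr2W (by
        have e' : π (s * g) = 1 := by
          calc π (s * g) = π (s * g) ^ 3 * π (s * g) := by rw [e, one_mul]
            _ = 1 := by rw [← pow_succ, hR]
        rw [e', one_mul])
    · exact absurd (show π s = 1 by simpa only [pow_zero, mul_one] using (show π s * π (s * g) ^ 0 = 1 from hx')) hsW
    · exact absurd (show π s * π (s * g) = 1 by simpa only [pow_one] using (show π s * π (s * g) ^ 1 = 1 from hx')) fun e => hgW (by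
        rwa [map_mul, ← mul_assoc, hS, one_mul] at e)
    · exact absurd (show π s * π (s * g) ^ 2 = 1 from hx') fun e => by
        have e1 : π (s * g) * π (s * g) = π s := by
          rw [← pow_two]
          exact mul_left_cancel (e.trans hS.symm)
        rw [← map_mul] at e1
        have hw : ((s * g) * (s * g))⁻¹ * s ∈ W T := (hπ _).1 (by rw [map_mul, map_inv, e1, inv_mul_cancel])
        have h2 := (hnot _ hw).1
        rw [map_mul, MulAut.mul_apply, ← hcs, as2, map_inv, MulAut.inv_apply, MulEquiv.symm_apply_eq, hr2, mul_eq_right] at h2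
        exact hz1ne h2
    · exact absurd (show π s * π (s * g) ^ 3 = 1 from hx') fun e => by
        have e1 : π s = π (s * g) := by
          calc π s = π s * π (s * g) ^ 4 := by rw [hR, mul_one]
            _ = π s * π (s * g) ^ 3 * π (s * g) := by rw [mul_assoc, ← pow_succ]
            _ = π (s * g) := by rw [e, one_mul]
        rw [map_mul, eq_comm, mul_eq_left] at e1
        exact hgW e1
  exact ⟨(MulEquiv.ofBijective f (hinj.bijective_of_nat_card_le (by
    rw [← Subgroup.index_eq_card, hidx, DihedralGroup.nat_card]))).symm⟩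

/-- Indicator of the rotations. -/
def indU : DihedralGroup 4 → ZMod 2
  | .r _ => 1
  | .sr _ => 0

/-- Indicator of the centre of the dihedral group. -/
def indM : DihedralGroup 4 → ZMod 2
  | .r i => if i = 0 ∨ i = 2 then 1 else 0
  | .sr _ => 0

theorem ind_facts : (∀ x : DihedralGroup 4, indU x + indU (x * .sr 0) = 1) ∧
    (∀ x : DihedralGroup 4, indM x + indM (x * .r 1) = indU x) ∧
    (∀ x : DihedralGroup 4, indU (x * .r 1 * .sr 0) = indU (x * .sr 0)) := by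
  decide +kernel

/-- The other reflection. -/
noncomputable def shiftEquiv : DihedralGroup 4 ≃* DihedralGroup 4 :=
  MulEquiv.ofBijective
    (dihedralHom (G := DihedralGroup 4) (.r 1) (.sr 1) (by decide +kernel) (by decide +kernel) (by decide +kernel))
    (by decide +kernel)

theorem shiftEquiv_sr_zero : shiftEquiv (.sr 0) = .sr 1 := by
  show dihedralHom (G := DihedralGroup 4) (.r 1) (.sr 1) (by decide +kernel) (by decide +kernel) (by decide +kernel) (.sr 0) = _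
  exact dihedralHom_sr_zero _ _ _ _ _

theorem reflection_moves (h : Hyp T) (M : Model T) (e : T ⧸ W T ≃* DihedralGroup 4) {b : T}
    (hb : b ∈ Z T 4) (hb3 : b ∉ Z T 3) (hbW : ∀ w ∈ W T, b * w = w * b) {s : T}
    (hs : (s : T ⧸ W T) = e.symm (.sr 0)) : s * b * s⁻¹ * b⁻¹ ∈ Z T 2 := by
  classical
  obtain ⟨hu, hm, hx⟩ := ind_facts
  have hel := (elementary h).1
  obtain ⟨-, -, -, -, hZ4, -⟩ := exists_model h
  set S : T ⧸ W T := e.symm (.sr 0) with hS
  have heS : ∀ q, e (q * S) = e q * .sr 0 := fun q => by rw [map_mul, hS, e.apply_symm_apply]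
  have hSS : S * S = 1 := by
    refine e.injective ?_
    rw [map_mul, map_one, hS, e.apply_symm_apply]
    decide +kernel
  -- choose the lift
  have hs2 : s * s ∈ W T := by
    rw [← QuotientGroup.eq_one_iff, QuotientGroup.mk_mul, hs, hSS]
  have hfixs : ∀ q, M.ψ ⟨s * s, hs2⟩ (q * S) = M.ψ ⟨s * s, hs2⟩ q := fun q => by
    rw [← hs, ← M.act s ⟨s * s, hs2⟩ (by rw [show s * (s * s) * s⁻¹ = s * s by group]; exact hs2)]
    exact congrArg (fun w : W T => M.ψ w q) (Subtype.ext (show s * (s * s) * s⁻¹ = s * s by group))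
  obtain ⟨k, hk⟩ := M.surj fun q => M.ψ ⟨s * s, hs2⟩ q * indU (e q)
  obtain ⟨u₀, hu₀⟩ := M.surj fun q => indU (e q)
  obtain ⟨m, hm₀⟩ := M.surj fun q => indM (e q)
  obtain ⟨r, hr⟩ := QuotientGroup.mk_surjective (e.symm (.r 1))
  set σ := (k : T) * s with hσ
  have hσS : (σ : T ⧸ W T) = S := by
    rw [hσ, QuotientGroup.mk_mul, (QuotientGroup.eq_one_iff (k : T)).2 k.2, one_mul, hs]
  have hσ2 : σ * σ ∈ Z T 3 := by
    have hm' : s * (k : T) * s⁻¹ ∈ W T := W_normal.conj_mem _ k.2 s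
    have e' : σ * σ = (k : T) * (s * k * s⁻¹) * (s * s) := by rw [hσ]; group
    have h0 : M.ψ (k * ⟨s * (k : T) * s⁻¹, hm'⟩ * ⟨s * s, hs2⟩) = 0 := by
      funext q
      rw [M.add, M.add, Pi.add_apply, Pi.add_apply, M.act]
      simp only [hk, hs, heS, hfixs]
      rw [← mul_add, hu, mul_one]
      exact zmod_two_add _
    have h1 := (M.zero _).1 h0
    simp only [Subgroup.coe_mul] at h1
    rw [e']
    exact h1
  suffices hσb : σ * b * σ⁻¹ * b⁻¹ ∈ Z T 2 by
    have h' := (inferInstance : (Z T 2).Normal).conj_mem _ hσb (k : T)⁻¹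
    have hbk : b⁻¹ * (k : T) = (k : T) * b⁻¹ := (Commute.inv_left (show Commute b (k : T) from hbW k k.2)).eq
    have e2 : (k : T)⁻¹ * (σ * b * σ⁻¹ * b⁻¹) * (k : T)⁻¹⁻¹ = s * b * s⁻¹ * b⁻¹ := by
      calc (k : T)⁻¹ * (σ * b * σ⁻¹ * b⁻¹) * (k : T)⁻¹⁻¹ = (k : T)⁻¹ * σ * b * σ⁻¹ * (b⁻¹ * (k : T)) := by group
        _ = (k : T)⁻¹ * σ * b * σ⁻¹ * ((k : T) * b⁻¹) := by rw [hbk]
        _ = _ := by rw [hσ]; group
    rwa [e2] at h'
  -- the norm element
  have hxm : σ * (u₀ : T) * σ⁻¹ ∈ W T := W_normal.conj_mem _ u₀.2 σ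
  set x := σ * (u₀ : T) * σ⁻¹ with hxdef
  have hy : b * ((u₀ : T) * x)⁻¹ ∈ Z T 3 := by
    have h' := (M.eq_iff ⟨b, hZ4 hb⟩ (u₀ * ⟨x, hxm⟩)).1 (funext fun q => by
      rw [M.top ⟨b, hZ4 hb⟩ hb hb3, M.add, Pi.add_apply, M.act]
      simp only [hu₀, hσS, heS, hu])
    simpa only [Subgroup.coe_mul] using h'
  set z := b * ((u₀ : T) * x)⁻¹ with hzdef
  have hbz : b = z * ((u₀ : T) * x) := by rw [hzdef, inv_mul_cancel_right]
  have hc : x * u₀ * x⁻¹ * (u₀ : T)⁻¹ ∈ Z T 2 := by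
    set m' := r * (m : T) * r⁻¹ with hm'def
    have hm'W : m' ∈ W T := W_normal.conj_mem _ m.2 r
    have hum : (u₀ : T) * ((m : T) * m')⁻¹ ∈ Z T 3 := by
      have h' := (M.eq_iff u₀ (m * ⟨m', hm'W⟩)).1 (funext fun q => by
        rw [M.add, Pi.add_apply, M.act]
        simp only [hu₀, hm₀, hr, map_mul, e.apply_symm_apply, hm])
      simpa only [Subgroup.coe_mul] using h'
    set ζ := (u₀ : T) * ((m : T) * m')⁻¹ with hζ
    have hζu : (u₀ : T) = ζ * ((m : T) * m') := by rw [hζ, inv_mul_cancel_right]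
    have hrx : r * x * r⁻¹ * x⁻¹ ∈ Z T 3 := by
      have hrxW : r * x * r⁻¹ ∈ W T := W_normal.conj_mem _ hxm r
      exact (M.eq_iff ⟨r * x * r⁻¹, hrxW⟩ ⟨x, hxm⟩).1 (funext fun q => by
        rw [M.act r ⟨x, hxm⟩, M.act, M.act]
        simp only [hu₀, hr, hσS, heS, map_mul, e.apply_symm_apply, hx])
    have hCmem : ∀ w ∈ W T, x * w * x⁻¹ * w⁻¹ ∈ Z T 3 := fun w hw => M.comm_mem hxm hw
    have hCmul : ∀ a ∈ W T, ∀ c ∈ W T,
        x * (a * c) * x⁻¹ * (a * c)⁻¹ = x * a * x⁻¹ * a⁻¹ * (x * c * x⁻¹ * c⁻¹) := fun a ha c hc => by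
      calc x * (a * c) * x⁻¹ * (a * c)⁻¹ = x * a * x⁻¹ * ((x * c * x⁻¹ * c⁻¹) * a⁻¹) := by group
        _ = x * a * x⁻¹ * (a⁻¹ * (x * c * x⁻¹ * c⁻¹)) := by rw [W_central (hCmem c hc) (inv_mem ha)]
        _ = _ := by group
    rw [hζu, hCmul ζ (Z_three_le_W h hum) _ (mul_mem m.2 hm'W), hCmul _ m.2 _ hm'W,
      ← W_central hum hxm, mul_inv_cancel_right, mul_inv_cancel, one_mul]
    set C := x * (m : T) * x⁻¹ * (m : T)⁻¹ with hC
    have hCm' : x * m' * x⁻¹ * m'⁻¹ = r * C * r⁻¹ := by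
      have e1 : r * C * r⁻¹ = (r * x * r⁻¹) * m' * (r * x * r⁻¹)⁻¹ * m'⁻¹ := by rw [hC, hm'def]; group
      rw [e1, show r * x * r⁻¹ = (r * x * r⁻¹ * x⁻¹) * x from by group]
      symm
      calc (r * x * r⁻¹ * x⁻¹) * x * m' * ((r * x * r⁻¹ * x⁻¹) * x)⁻¹ * m'⁻¹ =
          (r * x * r⁻¹ * x⁻¹) * (x * m' * x⁻¹) * (r * x * r⁻¹ * x⁻¹)⁻¹ * m'⁻¹ := by group
        _ = x * m' * x⁻¹ * m'⁻¹ := by
          rw [W_central hrx (mul_mem (mul_mem hxm hm'W) (inv_mem hxm)), mul_inv_cancel_right]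
    rw [hCm']
    have hC3 : C ∈ Z T 3 := hCmem _ m.2
    have hd := mem_succ.1 hC3 r
    have hrC : r * C * r⁻¹ ∈ Z T 3 := (inferInstance : (Z T 3).Normal).conj_mem _ hC3 r
    rwa [show r * C * r⁻¹ * C⁻¹ = C * (r * C * r⁻¹) by
      rw [inv_eq_of_mul_eq_one_right (hel C hC3), W_central hrC (Z_three_le_W h hC3)]] at hd
  have hσσ : σ * x * σ⁻¹ = u₀ := by
    rw [hxdef, show σ * (σ * (u₀ : T) * σ⁻¹) * σ⁻¹ = σ * σ * u₀ * (σ * σ)⁻¹ by group, W_central hσ2 u₀.2,
      mul_inv_cancel_right]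
  have hd := mem_succ.1 hy σ
  have e : σ * b * σ⁻¹ * b⁻¹ = σ * z * σ⁻¹ * (x * u₀ * x⁻¹ * (u₀ : T)⁻¹) * z⁻¹ := by
    rw [hbz]
    calc σ * (z * ((u₀ : T) * x)) * σ⁻¹ * (z * ((u₀ : T) * x))⁻¹ =
        σ * z * σ⁻¹ * (σ * (u₀ : T) * σ⁻¹ * (σ * x * σ⁻¹) * x⁻¹ * (u₀ : T)⁻¹) * z⁻¹ := by group
      _ = _ := by rw [hσσ, ← hxdef]
  rw [e, show σ * z * σ⁻¹ * (x * u₀ * x⁻¹ * (u₀ : T)⁻¹) * z⁻¹ =
    σ * z * σ⁻¹ * z⁻¹ * (z * (x * u₀ * x⁻¹ * (u₀ : T)⁻¹) * z⁻¹) by group]
  exact mul_mem hd ((inferInstance : (Z T 2).Normal).conj_mem _ hc z)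

/-- The centre of `W` is the third centre of `T`. -/
theorem center_W (h : Hyp T) : (Subgroup.center (W T)).map (W T).subtype = Z T 3 := by
  classical
  haveI : Fact (Nat.Prime 2) := ⟨Nat.prime_two⟩
  obtain ⟨-, -, -, -, hZ4, -⟩ := exists_model h
  obtain ⟨M⟩ := nonempty_model h
  obtain ⟨e⟩ := quotient_equiv h
  haveI hn : ((Subgroup.center (W T)).map (W T).subtype).Normal := ConjAct.normal_of_characteristic_of_normal
  have hle : Z T 3 ≤ (Subgroup.center (W T)).map (W T).subtype := fun z hz =>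
    ⟨⟨z, Z_three_le_W h hz⟩, Subgroup.mem_center_iff.2 fun g => Subtype.ext (W_central hz g.2).symm, rfl⟩
  by_contra hne
  obtain ⟨b, hbC, hb, hb3⟩ := exists_mem_step h (i := 3) _ (lt_of_le_of_ne hle (Ne.symm hne))
  obtain ⟨bW, hbc, rfl⟩ := hbC
  have hbW : ∀ w ∈ W T, (bW : T) * w = w * bW := fun w hw =>
    (congrArg Subtype.val (Subgroup.mem_center_iff.1 hbc ⟨w, hw⟩)).symm
  let P : Subgroup T :=
    (Subgroup.centralizer ({((bW : T) : T ⧸ Z T 2)} : Set (T ⧸ Z T 2))).comap (QuotientGroup.mk' (Z T 2))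
  have hP : ∀ t : T, t ∈ P ↔ t * (bW : T) * t⁻¹ * (bW : T)⁻¹ ∈ Z T 2 := fun t => by
    rw [Subgroup.mem_comap, Subgroup.mem_centralizer_singleton_iff, ← QuotientGroup.eq_one_iff,
      QuotientGroup.mk_mul, QuotientGroup.mk_mul, QuotientGroup.mk_mul, QuotientGroup.mk_inv, QuotientGroup.mk_inv,
      mul_inv_eq_one, mul_inv_eq_iff_eq_mul]
    rfl
  have hWP : W T ≤ P := fun w hw => (hP w).2 (by
    rw [← hbW w hw, mul_inv_cancel_right, mul_inv_cancel]
    exact one_mem _)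
  refine hb3 (mem_succ.2 fun t => (hP t).1 ?_)
  have hlift : ∀ q : T ⧸ W T, ∀ t : T, (t : T ⧸ W T) = q → q ∈ P.map (QuotientGroup.mk' (W T)) → t ∈ P := by
    rintro q t ht ⟨p, hp, hpq⟩
    have hpt : p⁻¹ * t ∈ W T := QuotientGroup.eq.1 ((hpq : (p : T ⧸ W T) = q).trans ht.symm)
    have := P.mul_mem hp (hWP hpt)
    rwa [mul_inv_cancel_left] at this
  refine hlift _ t rfl ?_
  set Q' := (P.map (QuotientGroup.mk' (W T))).map e.toMonoidHom with hQ'
  have h0 : DihedralGroup.sr 0 ∈ Q' := by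
    obtain ⟨s, hs⟩ := QuotientGroup.mk_surjective (e.symm (.sr 0))
    exact ⟨_, ⟨s, (hP s).2 (reflection_moves h M e hb hb3 hbW hs), hs⟩, e.apply_symm_apply _⟩
  have h1 : DihedralGroup.sr 1 ∈ Q' := by
    obtain ⟨s, hs⟩ := QuotientGroup.mk_surjective ((e.trans shiftEquiv.symm).symm (.sr 0))
    refine ⟨_, ⟨s, (hP s).2 (reflection_moves h M (e.trans shiftEquiv.symm) hb hb3 hbW hs), hs⟩, ?_⟩
    show e ((e.trans shiftEquiv.symm).symm (.sr 0)) = _
    rw [MulEquiv.symm_trans_apply, e.apply_symm_apply, MulEquiv.symm_symm, shiftEquiv_sr_zero]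
  have hr1 : DihedralGroup.r 1 ∈ Q' := by
    have := Q'.mul_mem h0 h1
    rwa [DihedralGroup.sr_mul_sr, sub_zero] at this
  have hall : ∀ x, x ∈ Q' := by
    have hri : ∀ i : ZMod 4, DihedralGroup.r i ∈ Q' := fun i => by
      have := Q'.pow_mem hr1 i.val
      rwa [DihedralGroup.r_one_pow, ZMod.natCast_zmod_val] at this
    intro x
    rcases x with i | i
    · exact hri i
    · have := Q'.mul_mem h0 (hri i)
      rwa [DihedralGroup.sr_mul_r, zero_add] at this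
  obtain ⟨q, hq, hqe⟩ := hall (e (t : T ⧸ W T))
  exact e.injective hqe ▸ hq

end Cfsg.Lib.TwoGroup.BigCentre
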