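import Mathlib
import Cfsg.Agent.Lib.TwoGroup.BigCentreCentre

/-!
`W` is the only subgroup of its isomorphism type.
-/

set_option autoImplicit false

namespace Cfsg.Lib.TwoGroup.BigCentre

open Subgroup

/-- A transversal indicator for a fixed-point-free involutory map. -/
theorem exists_indicator {Q : Type*} [Finite Q] (σ : Q → Q) (hσ : ∀ q, σ (σ q) = q) (hne : ∀ q, σ q ≠ q) :
    ∃ ind : Q → ZMod 2, ∀ q, ind q + ind (σ q) = 1 := by
  classical
  haveI : Fintype Q := Fintype.ofFinite _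
  let e := Fintype.equivFin Q
  refine ⟨fun q => if e q < e (σ q) then 1 else 0, fun q => ?_⟩
  simp only [hσ]
  rcases lt_trichotomy (e q) (e (σ q)) with h | h | h
  · rw [if_pos h, if_neg h.asymm, add_zero]
  · exact absurd (e.injective h).symm (hne q)
  · rw [if_neg h.asymm, if_pos h, zero_add]

/-- The invariant functions of a fixed-point-free involutory map. -/
theorem card_fixed {Q : Type*} [Finite Q] (σ : Q → Q) (hσ : ∀ q, σ (σ q) = q) (hne : ∀ q, σ q ≠ q)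
    (D : (Q → ZMod 2) →+ (Q → ZMod 2)) (hD : ∀ f q, D f q = f q + f (σ q)) :
    Nat.card D.ker * Nat.card D.ker = 2 ^ Nat.card Q := by
  classical
  obtain ⟨ind, hind⟩ := exists_indicator σ hσ hne
  have hRK : D.range = D.ker := by
    ext f
    constructor
    · rintro ⟨g, rfl⟩
      rw [AddMonoidHom.mem_ker]
      funext q
      rw [hD, hD, hD, hσ, add_comm (g (σ q)), Pi.zero_apply]
      exact zmod_two_add _
    · intro hf
      refine ⟨fun q => f q * ind q, funext fun q => ?_⟩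
      have h0 : f q + f (σ q) = 0 := by rw [← hD]; exact congrFun hf q
      have h1 : f (σ q) = f q := by
        calc f (σ q) = (f q + f q) + f (σ q) := by rw [zmod_two_add, zero_add]
          _ = f q := by rw [add_assoc, h0, add_zero]
      rw [hD, h1, ← mul_add, hind, mul_one]
  calc Nat.card D.ker * Nat.card D.ker = Nat.card D.ker * Nat.card D.range := by rw [hRK]
    _ = 2 ^ Nat.card Q := by
      rw [← AddSubgroup.index_ker, AddSubgroup.card_mul_index, Nat.card_fun, Nat.card_zmod]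

variable {T : Type*} [Group T] [Finite T]

theorem eq_W (h : Hyp T) (W' : Subgroup T) (e : W T ≃* W') : W' = W T := by
  classical
  haveI : Fact (Nat.Prime 2) := ⟨Nat.prime_two⟩
  obtain ⟨hidx, hWc, hTc, hΦ, hZ4, -⟩ := exists_model h
  obtain ⟨hel, -⟩ := elementary h
  obtain ⟨M⟩ := nonempty_model h
  obtain ⟨z₂, z₃, hz₂, hz₂', hz₃, hz₃', hW⟩ := exists_gens h
  obtain ⟨eQ⟩ := quotient_equiv h
  by_contra hne
  have hW'c : Nat.card W' = 2 ^ 11 := by rw [← Nat.card_congr e.toEquiv, hWc]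
  let Φ' : Subgroup T := ((frattini (W T)).map e.toMonoidHom).map W'.subtype
  have hΦ'c : Nat.card Φ' = 8 := by
    rw [Subgroup.card_map_of_injective W'.subtype_injective, Subgroup.card_map_of_injective e.injective,
      ← Subgroup.card_map_of_injective (W T).subtype_injective, hΦ, card_Z h (by norm_num)]
    norm_num
  have hΦfr : ∀ z : W T, z ∈ frattini (W T) ↔ (z : T) ∈ Z T 3 := fun z => by
    rw [← hΦ]
    exact ⟨fun hz => ⟨z, hz, rfl⟩, fun ⟨v, hv, ev⟩ => Subtype.ext ev ▸ hv⟩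
  have hΦ'W' : Φ' ≤ W' := Subgroup.map_subtype_le _
  have hΦ'mem : ∀ y : W', (e.symm y : T) ∈ Z T 3 → (y : T) ∈ Φ' := fun y hy =>
    ⟨y, ⟨e.symm y, (hΦfr _).2 hy, e.apply_symm_apply y⟩, rfl⟩
  have hcom : ∀ x ∈ W', ∀ y ∈ W', x * y * x⁻¹ * y⁻¹ ∈ Φ' := fun x hx y hy => by
    refine hΦ'mem (⟨x, hx⟩ * ⟨y, hy⟩ * (⟨x, hx⟩ : W')⁻¹ * (⟨y, hy⟩ : W')⁻¹) ?_
    rw [map_mul, map_mul, map_mul, map_inv, map_inv]
    simpa only [Subgroup.coe_mul, Subgroup.coe_inv] using M.comm_mem (e.symm ⟨x, hx⟩).2 (e.symm ⟨y, hy⟩).2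
  have hsq : ∀ x ∈ W', x * x ∈ Φ' := fun x hx => by
    refine hΦ'mem (⟨x, hx⟩ * ⟨x, hx⟩) ?_
    rw [map_mul]
    simpa only [Subgroup.coe_mul] using M.sq_mem (e.symm ⟨x, hx⟩).2
  have hcent : ∀ φ ∈ Φ', ∀ x ∈ W', φ * x = x * φ := by
    rintro _ ⟨y, ⟨z, hz, rfl⟩, rfl⟩ x hx
    have h' : z * e.symm ⟨x, hx⟩ = e.symm ⟨x, hx⟩ * z :=
      Subtype.ext (W_central ((hΦfr z).1 hz) (e.symm ⟨x, hx⟩).2)
    have h'' := congrArg (fun w : W T => ((e w : W') : T)) h'
    simpa using h''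
  -- the intersection
  have hrel : (W T).relIndex W' ≤ 8 := hidx ▸ Nat.le_of_dvd
    (by rw [hidx]; norm_num) (Subgroup.relIndex_dvd_index_of_normal (W T) W')
  set I := W' ⊓ W T with hIdef
  have hI1 : Nat.card I * (W T).relIndex W' = 2 ^ 11 := by
    rw [← hW'c, ← Subgroup.card_mul_index ((W T).subgroupOf W')]
    congr 1
    rw [← Nat.card_congr (Subgroup.subgroupOfEquivOfLe (inf_le_left : I ≤ W')).toEquiv,
      Subgroup.inf_subgroupOf_left]
  have hI2 : W'.relIndex (W T) = (W T).relIndex W' := by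
    have e1 : Nat.card I * W'.relIndex (W T) = 2 ^ 11 := by
      rw [← hWc, ← Subgroup.card_mul_index (W'.subgroupOf (W T))]
      congr 1
      rw [← Nat.card_congr (Subgroup.subgroupOfEquivOfLe (inf_le_right : I ≤ W T)).toEquiv,
        Subgroup.inf_subgroupOf_right]
    exact Nat.eq_of_mul_eq_mul_left Nat.card_pos (e1.trans hI1.symm)
  have hZ3W' : Z T 3 ≤ W' := by
    intro z hz
    have := h.good (W'.subgroupOf (W T)) (le_trans (le_of_eq hI2) (hrel.trans (by norm_num)))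
      ((hΦfr ⟨z, Z_three_le_W h hz⟩).2 hz)
    exact this
  have hΦ'W : Φ' ≤ W T := by
    rintro _ ⟨_, ⟨z, hz, rfl⟩, rfl⟩
    have hU : (((W T).subgroupOf W').comap e.toMonoidHom).index ≤ 16 := by
      rw [Subgroup.index_comap_of_surjective _ e.surjective]
      exact hrel.trans (by norm_num)
    exact h.good _ hU hz
  -- the image in the quotient
  let π := QuotientGroup.mk' (W T)
  set Q₀ := W'.map π with hQ₀
  have hQ₀c : Nat.card Q₀ = (W T).relIndex W' := by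
    rw [hQ₀, show W'.map π = (π.comp W'.subtype).range by rw [MonoidHom.range_comp, Subgroup.range_subtype],
      ← Subgroup.index_ker, ← MonoidHom.comap_ker, QuotientGroup.ker_mk']
    rfl
  have hQ₀ab : ∀ a ∈ Q₀, ∀ c ∈ Q₀, a * c = c * a := by
    rintro _ ⟨x, hx, rfl⟩ _ ⟨y, hy, rfl⟩
    have h' : π (x * y * x⁻¹ * y⁻¹) = 1 := (QuotientGroup.eq_one_iff _).2 (hΦ'W (hcom x hx y hy))
    rw [map_mul, map_mul, map_mul, map_inv, map_inv, mul_inv_eq_one, mul_inv_eq_iff_eq_mul] at h'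
    exact h'
  -- images of the intersection and of `Φ'`
  let ΨW : W T →* Multiplicative (T ⧸ W T → ZMod 2) :=
    MonoidHom.mk' (fun w => Multiplicative.ofAdd (M.ψ w)) fun v w => by simp [M.add]
  let ΨI : I →* Multiplicative (T ⧸ W T → ZMod 2) := ΨW.comp (Subgroup.inclusion inf_le_right)
  let U : AddSubgroup (T ⧸ W T → ZMod 2) := Subgroup.toAddSubgroup' ΨI.range
  have hUmem : ∀ f, f ∈ U ↔ ∃ w : W T, (w : T) ∈ W' ∧ M.ψ w = f := by
    intro f
    constructor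
    · rintro ⟨⟨w, hw1, hw2⟩, hw⟩
      exact ⟨⟨w, hw2⟩, hw1, congrArg Multiplicative.toAdd hw⟩
    · rintro ⟨w, hw1, rfl⟩
      exact ⟨⟨w, hw1, w.2⟩, rfl⟩
  let ΨP : Φ' →* Multiplicative (T ⧸ W T → ZMod 2) := ΨW.comp (Subgroup.inclusion hΦ'W)
  let P : AddSubgroup (T ⧸ W T → ZMod 2) := Subgroup.toAddSubgroup' ΨP.range
  have hPmem : ∀ f, f ∈ P ↔ ∃ w : W T, (w : T) ∈ Φ' ∧ M.ψ w = f := by
    intro f
    constructor
    · rintro ⟨⟨w, hw⟩, hw'⟩
      exact ⟨⟨w, hΦ'W hw⟩, hw, congrArg Multiplicative.toAdd hw'⟩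
    · rintro ⟨w, hw1, rfl⟩
      exact ⟨⟨w, hw1⟩, rfl⟩
  have hUc : Nat.card U * 8 = Nat.card I := by
    have e1 : Nat.card ΨI.ker = 8 := by
      rw [show (8 : ℕ) = Nat.card (Z T 3) by rw [card_Z h (by norm_num)]; norm_num]
      have : ΨI.ker = (Z T 3).subgroupOf I := by
        ext w
        exact M.zero (Subgroup.inclusion inf_le_right w)
      rw [this, Nat.card_congr (Subgroup.subgroupOfEquivOfLe (le_inf hZ3W' (Z_three_le_W h))).toEquiv]
    rw [← ΨI.ker.card_mul_index, Subgroup.index_ker, e1, mul_comm]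
    rfl
  set C := Φ' ⊓ Z T 3 with hCdef
  have hPc : Nat.card P * Nat.card C = 8 := by
    have e1 : Nat.card ΨP.ker = Nat.card C := by
      have : ΨP.ker = C.subgroupOf Φ' := by
        ext w
        rw [hCdef, Subgroup.inf_subgroupOf_left]
        exact M.zero (Subgroup.inclusion hΦ'W w)
      rw [this, Nat.card_congr (Subgroup.subgroupOfEquivOfLe inf_le_left).toEquiv]
    rw [← hΦ'c, ← ΨP.ker.card_mul_index, Subgroup.index_ker, e1, mul_comm]
    rfl
  have hCmem : ∀ x ∈ W', ∀ z ∈ Z T 3, x * z * x⁻¹ * z⁻¹ ∈ C := fun x hx z hz =>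
    ⟨hcom x hx z (hZ3W' hz), (Z T 3).mul_mem ((inferInstance : (Z T 3).Normal).conj_mem _ hz x) ((Z T 3).inv_mem hz)⟩
  have hle : ¬ W' ≤ W T := fun hle => hne (Subgroup.eq_of_le_of_card_ge hle (by rw [hW'c, hWc]))
  obtain ⟨x₀, hx₀, hx₀W⟩ := SetLike.not_le_iff_exists.1 hle
  have hC2 : 2 ≤ Nat.card C := by
    rw [Nat.succ_le_iff, Finite.one_lt_card_iff_nontrivial, Subgroup.nontrivial_iff_ne_bot]
    intro hbot
    refine hx₀W ((hW x₀).2 ⟨?_, ?_⟩)
    · have h' := hCmem x₀ hx₀ z₂ (Subgroup.upperCentralSeries_mono (G := T) (by norm_num) hz₂)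
      rw [hbot, Subgroup.mem_bot, mul_inv_eq_one, mul_inv_eq_iff_eq_mul] at h'
      exact h'
    · have h' := hCmem x₀ hx₀ z₃ hz₃
      rw [hbot, Subgroup.mem_bot, mul_inv_eq_one, mul_inv_eq_iff_eq_mul] at h'
      exact h'
  have hP4 : Nat.card P ≤ 4 := by nlinarith
  -- the translations by elements outside `W`
  let D : T → (T ⧸ W T → ZMod 2) →+ (T ⧸ W T → ZMod 2) := fun x =>
    AddMonoidHom.mk' (fun f q => f q + f (q * (x : T ⧸ W T))) fun f g => funext fun q => by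
      simp only [Pi.add_apply]; abel
  have hker16 : ∀ x ∈ W', x ∉ W T → Nat.card (D x).ker = 16 := by
    intro x hx hxW
    have hxx : (x : T ⧸ W T) * (x : T ⧸ W T) = 1 := by
      rw [← QuotientGroup.mk_mul, QuotientGroup.eq_one_iff]
      exact hΦ'W (hsq x hx)
    have h' := card_fixed (fun q : T ⧸ W T => q * (x : T ⧸ W T)) (fun q => by rw [mul_assoc, hxx, mul_one])
      (fun q hq => hxW ((QuotientGroup.eq_one_iff x).1 (mul_eq_left.1 hq))) (D x) (fun f q => rfl)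
    rw [← Subgroup.index_eq_card, hidx] at h'
    exact Nat.mul_self_inj.1 (h'.trans (by norm_num))
  have hDU : ∀ x ∈ W', ∀ f ∈ U, D x f ∈ P := by
    intro x hx f hf
    obtain ⟨w, hw', rfl⟩ := (hUmem f).1 hf
    have hwx : x * (w : T) * x⁻¹ ∈ W T := W_normal.conj_mem _ w.2 x
    refine (hPmem _).2 ⟨⟨x * (w : T) * x⁻¹, hwx⟩ * w⁻¹, by simpa only [Subgroup.coe_mul, Subgroup.coe_inv] using hcom x hx w hw', ?_⟩
    rw [M.add, M.inv]
    funext q
    rw [Pi.add_apply, M.act, add_comm]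
    rfl
  have hbound : ∀ x ∈ W', x ∉ W T →
      Nat.card U ≤ 16 * Nat.card P ∧ (16 * Nat.card P ≤ Nat.card U → (D x).ker ≤ U) := by
    intro x hx hxW
    let D' : U →+ (T ⧸ W T → ZMod 2) := (D x).comp U.subtype
    have hr : Nat.card D'.range ≤ Nat.card P := AddSubgroup.card_le_of_le (by
      rintro _ ⟨f, rfl⟩
      exact hDU x hx f f.2)
    have hk : Nat.card D'.ker ≤ 16 := by
      rw [← hker16 x hx hxW]
      exact Nat.card_le_card_of_injective (fun f => ⟨f.1.1, f.2⟩) fun a c h => Subtype.ext (Subtype.ext (congrArg (fun z : (D x).ker => (z : T ⧸ W T → ZMod 2)) h))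
    have hmul : Nat.card U = Nat.card D'.ker * Nat.card D'.range := by
      rw [← AddSubgroup.index_ker, AddSubgroup.card_mul_index]
    refine ⟨hmul ▸ Nat.mul_le_mul hk hr, fun hbig f hf => ?_⟩
    have h16 : 16 ≤ Nat.card D'.ker := by
      have hPpos : 0 < Nat.card P := Nat.card_pos
      by_contra hlt
      have : Nat.card U < 16 * Nat.card P := by
        rw [hmul]
        exact lt_of_le_of_lt (Nat.mul_le_mul_left _ hr) (Nat.mul_lt_mul_of_pos_right (not_le.1 hlt) hPpos)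
      omega
    let ι : D'.ker → (D x).ker := fun g => ⟨g.1.1, g.2⟩
    have hinj : Function.Injective ι := fun a c h => Subtype.ext (Subtype.ext (congrArg (fun z : (D x).ker => (z : T ⧸ W T → ZMod 2)) h))
    obtain ⟨g, hg⟩ := (hinj.bijective_of_nat_card_le (by rw [hker16 x hx hxW]; exact h16)).2 ⟨f, hf⟩
    rw [← show (g.1.1 : T ⧸ W T → ZMod 2) = f from congrArg (fun z : (D x).ker => (z : T ⧸ W T → ZMod 2)) hg]
    exact g.1.2
  -- sizes
  have hU64 : Nat.card U ≤ 64 := (hbound x₀ hx₀ hx₀W).1.trans (Nat.mul_le_mul_left 16 hP4)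
  have hQne : Nat.card Q₀ ≠ 8 := fun h8 => by
    have htop : Q₀ = ⊤ := Subgroup.eq_top_of_card_eq _ (by rw [h8, ← Subgroup.index_eq_card, hidx])
    have h' := hQ₀ab (eQ.symm (.sr 0)) (htop.ge (Subgroup.mem_top _)) (eQ.symm (.sr 1)) (htop.ge (Subgroup.mem_top _))
    rw [← map_mul, ← map_mul, eQ.symm.injective.eq_iff] at h'
    exact absurd h' (by decide)
  have hQdvd : Nat.card Q₀ ∣ 8 := by
    have := Q₀.card_subgroup_dvd_card
    rwa [← Subgroup.index_eq_card, hidx] at this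
  have hQ4 : Nat.card Q₀ = 4 := by
    have h1 := hI1
    rw [← hQ₀c, ← hUc] at h1
    have hmem : Nat.card Q₀ ∈ Nat.divisors 8 := Nat.mem_divisors.2 ⟨hQdvd, by norm_num⟩
    rw [show Nat.divisors 8 = {1, 2, 4, 8} by decide] at hmem
    simp only [Finset.mem_insert, Finset.mem_singleton] at hmem
    rcases hmem with h' | h' | h' | h'
    · rw [h'] at h1; omega
    · rw [h'] at h1; omega
    · exact h'
    · exact absurd h' hQne
  have hUeq : Nat.card U = 64 := by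
    have h1 := hI1
    rw [← hQ₀c, ← hUc, hQ4] at h1
    omega
  have hPeq : Nat.card P = 4 := by
    have := (hbound x₀ hx₀ hx₀W).1
    omega
  have hCeq : Nat.card C = 2 := by rw [hPeq] at hPc; omega
  have hkerU : ∀ x ∈ W', x ∉ W T → (D x).ker ≤ U := fun x hx hxW =>
    (hbound x hx hxW).2 (by rw [hPeq, hUeq])
  -- the common commutator subgroup is the centre of `T`
  have h1c : Nat.card (Z T 1) = 2 := by rw [card_Z h (by norm_num)]; norm_num
  have hC1 : C = Z T 1 := by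
    by_contra hC1
    have hno : ∀ x ∈ W', x * z₂ * x⁻¹ * z₂⁻¹ = 1 := by
      intro x hx
      by_contra hx1
      refine hC1 (Subgroup.eq_of_le_of_card_ge ?_ (by rw [hCeq, h1c])).symm
      intro a ha
      have hc := hCmem x hx z₂ (Subgroup.upperCentralSeries_mono (G := T) (by norm_num) hz₂)
      have hc1 : x * z₂ * x⁻¹ * z₂⁻¹ ∈ Z T 1 := mem_succ.1 hz₂ x
      by_cases ha1 : a = 1
      · rw [ha1]; exact one_mem _
      · have h0 : Z T 0 = ⊥ := Subgroup.upperCentralSeries_zero T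
        have h' := coset_two h (i := 0) (by norm_num) hc1 (by rwa [h0, Subgroup.mem_bot]) ha (by rwa [h0, Subgroup.mem_bot])
        rw [h0, Subgroup.mem_bot, inv_mul_eq_one] at h'
        exact h' ▸ hc
    have hle2 : Nat.card Q₀ ≤ Nat.card C := by
      refine Nat.card_le_card_of_injective
        (fun q => ⟨q.2.choose * z₃ * q.2.choose⁻¹ * z₃⁻¹, hCmem _ q.2.choose_spec.1 z₃ hz₃⟩) ?_
      intro q r he
      have he' : q.2.choose * z₃ * q.2.choose⁻¹ = r.2.choose * z₃ * r.2.choose⁻¹ :=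
        mul_right_cancel (congrArg (fun c : C => (c : T)) he)
      have he2 : q.2.choose * z₂ * q.2.choose⁻¹ = r.2.choose * z₂ * r.2.choose⁻¹ :=
        mul_right_cancel ((hno _ q.2.choose_spec.1).trans (hno _ r.2.choose_spec.1).symm)
      have key : ∀ z : T, q.2.choose * z * q.2.choose⁻¹ = r.2.choose * z * r.2.choose⁻¹ →
          q.2.choose⁻¹ * r.2.choose * z = z * (q.2.choose⁻¹ * r.2.choose) := by
        intro z hz
        calc q.2.choose⁻¹ * r.2.choose * z = q.2.choose⁻¹ * (r.2.choose * z * r.2.choose⁻¹) * r.2.choose := by group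
          _ = q.2.choose⁻¹ * (q.2.choose * z * q.2.choose⁻¹) * r.2.choose := by rw [hz]
          _ = z * (q.2.choose⁻¹ * r.2.choose) := by group
      refine Subtype.ext ?_
      rw [← q.2.choose_spec.2, ← r.2.choose_spec.2]
      exact QuotientGroup.eq.2 ((hW _).2 ⟨key z₂ he2, key z₃ he'⟩)
    omega
  have hxz : ∀ x ∈ W', ∀ z ∈ Z T 3, x * z * x⁻¹ * z⁻¹ ∈ Z T 1 := fun x hx z hz => hC1 ▸ hCmem x hx z hz
  -- the coordinates of `Q₀`
  have hz23 : z₂ ∈ Z T 3 := Subgroup.upperCentralSeries_mono (G := T) (by norm_num) hz₂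
  have hcoord : ∀ a ∈ Z T 1, ∀ c ∈ Z T 1, ∃ x ∈ W', x * z₂ * x⁻¹ * z₂⁻¹ = a ∧ x * z₃ * x⁻¹ * z₃⁻¹ = c := by
    let f : Q₀ → Z T 1 × Z T 1 := fun q =>
      (⟨q.2.choose * z₂ * q.2.choose⁻¹ * z₂⁻¹, hxz _ q.2.choose_spec.1 z₂ hz23⟩,
        ⟨q.2.choose * z₃ * q.2.choose⁻¹ * z₃⁻¹, hxz _ q.2.choose_spec.1 z₃ hz₃⟩)
    have hf : Function.Injective f := by
      intro q r he
      have he2 : q.2.choose * z₂ * q.2.choose⁻¹ = r.2.choose * z₂ * r.2.choose⁻¹ :=
        mul_right_cancel (congrArg (fun c : Z T 1 × Z T 1 => (c.1 : T)) he)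
      have he' : q.2.choose * z₃ * q.2.choose⁻¹ = r.2.choose * z₃ * r.2.choose⁻¹ :=
        mul_right_cancel (congrArg (fun c : Z T 1 × Z T 1 => (c.2 : T)) he)
      have key : ∀ z : T, q.2.choose * z * q.2.choose⁻¹ = r.2.choose * z * r.2.choose⁻¹ →
          q.2.choose⁻¹ * r.2.choose * z = z * (q.2.choose⁻¹ * r.2.choose) := by
        intro z hz
        calc q.2.choose⁻¹ * r.2.choose * z = q.2.choose⁻¹ * (r.2.choose * z * r.2.choose⁻¹) * r.2.choose := by group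
          _ = q.2.choose⁻¹ * (q.2.choose * z * q.2.choose⁻¹) * r.2.choose := by rw [hz]
          _ = z * (q.2.choose⁻¹ * r.2.choose) := by group
      refine Subtype.ext ?_
      rw [← q.2.choose_spec.2, ← r.2.choose_spec.2]
      exact QuotientGroup.eq.2 ((hW _).2 ⟨key z₂ he2, key z₃ he'⟩)
    intro a ha c hc
    obtain ⟨q, hq⟩ := (hf.bijective_of_nat_card_le (by rw [Nat.card_prod, h1c, hQ4])).2 (⟨a, ha⟩, ⟨c, hc⟩)
    exact ⟨_, q.2.choose_spec.1, congrArg (fun p : Z T 1 × Z T 1 => (p.1 : T)) hq,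
      congrArg (fun p : Z T 1 × Z T 1 => (p.2 : T)) hq⟩
  obtain ⟨z₁, hz₁, hz₁'⟩ := SetLike.exists_of_lt (Z_lt h (i := 0) (by norm_num))
  have hz1ne : z₁ ≠ 1 := fun e' => hz₁' (e' ▸ one_mem _)
  have hfixed : ∀ z ∈ Z T 3, (∀ x ∈ W', x * z * x⁻¹ = z) → z ∈ Z T 1 := by
    intro z hz hfix
    have hz2 : z ∈ Z T 2 := by
      by_contra hz2
      obtain ⟨x, hx, hx2, hx3⟩ := hcoord 1 (one_mem _) z₁ hz₁
      have hd := coset_two h (i := 2) (by norm_num) hz₃ hz₃' hz hz2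
      have hfd : x * (z₃⁻¹ * z) * x⁻¹ = z₃⁻¹ * z := by
        have hle2 : Z T 2 ≤ Subgroup.centralizer ({x} : Set T) := by
          rw [← span h (i := 1) (by norm_num) hz₂ hz₂']
          refine sup_le (fun a ha => Subgroup.mem_centralizer_singleton_iff.2 (Z_one_central ha x).symm) (Subgroup.zpowers_le.2 ?_)
          rw [Subgroup.mem_centralizer_singleton_iff]
          exact (mul_inv_eq_iff_eq_mul.1 (mul_inv_eq_one.1 hx2)).symm
        rw [← (Subgroup.mem_centralizer_singleton_iff.1 (hle2 hd) : z₃⁻¹ * z * x = x * (z₃⁻¹ * z)), mul_inv_cancel_right]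
      refine hz1ne ?_
      have e1 : x * z₃ * x⁻¹ = z₃ := by
        calc x * z₃ * x⁻¹ = (x * z * x⁻¹) * (x * (z₃⁻¹ * z) * x⁻¹)⁻¹ := by group
          _ = z * (z₃⁻¹ * z)⁻¹ := by rw [hfix x hx, hfd]
          _ = z₃ := by group
      rw [← hx3, e1, mul_inv_cancel]
    by_contra hz1
    obtain ⟨x, hx, hx2, hx3⟩ := hcoord z₁ hz₁ 1 (one_mem _)
    have hd := coset_two h (i := 1) (by norm_num) hz₂ hz₂' hz2 hz1
    refine hz1ne ?_
    have e1 : x * z₂ * x⁻¹ = z₂ := by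
      calc x * z₂ * x⁻¹ = (x * z * x⁻¹) * (x * (z₂⁻¹ * z) * x⁻¹)⁻¹ := by group
        _ = z * (z₂⁻¹ * z)⁻¹ := by rw [hfix x hx, Z_one_central hd x, mul_inv_cancel_right]
        _ = z₂ := by group
    rw [← hx2, e1, mul_inv_cancel]
  -- the fixed functions of `Q₀`
  let Fx : AddSubgroup (T ⧸ W T → ZMod 2) :=
    { carrier := {f | ∀ q, ∀ s ∈ Q₀, f (q * s) = f q}
      zero_mem' := fun _ _ _ => rfl
      add_mem' := fun {f g} hf hg q s hs => by simp only [Pi.add_apply, hf q s hs, hg q s hs]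
      neg_mem' := fun {f} hf q s hs => by simp only [Pi.neg_apply, hf q s hs] }
  have hFc : Nat.card Fx ≤ 4 := by
    have hidxQ : Nat.card ((T ⧸ W T) ⧸ Q₀) = 2 := by
      have := Subgroup.card_eq_card_quotient_mul_card_subgroup Q₀
      rw [hQ4, ← Subgroup.index_eq_card, hidx] at this
      omega
    calc Nat.card Fx ≤ Nat.card ((T ⧸ W T) ⧸ Q₀ → ZMod 2) := by
          refine Nat.card_le_card_of_injective (fun f c => f.1 c.out) fun f g he => Subtype.ext (funext fun q => ?_)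
          obtain ⟨s, hs⟩ := QuotientGroup.mk_out_eq_mul Q₀ q
          have h' := congrFun he (q : (T ⧸ W T) ⧸ Q₀)
          simp only [hs, f.2 q s s.2, g.2 q s s.2] at h'
          exact h'
      _ ≤ 4 := by rw [Nat.card_fun, Nat.card_zmod, hidxQ]; norm_num
  have hPF : P ≤ Fx := by
    intro f hf q s hs
    obtain ⟨x, hx, rfl⟩ := hs
    obtain ⟨w, hw, rfl⟩ := (hPmem f).1 hf
    have hwx : x * (w : T) * x⁻¹ ∈ W T := W_normal.conj_mem _ w.2 x
    rw [show π x = ((x : T) : T ⧸ W T) from rfl, ← M.act x w hwx q]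
    exact congrArg (fun v : W T => M.ψ v q) (Subtype.ext (show x * (w : T) * x⁻¹ = w by
      rw [← hcent w hw x hx, mul_inv_cancel_right]))
  have hPFeq : P = Fx := AddSubgroup.eq_of_le_of_card_ge hPF (hPeq ▸ hFc)
  obtain ⟨b, hb, hb3⟩ := SetLike.exists_of_lt (Z_lt h (i := 3) (by norm_num))
  obtain ⟨φ, hφ, hφb⟩ := (hPmem _).1 (hPFeq.ge (show M.ψ ⟨b, hZ4 hb⟩ ∈ Fx from fun q s _ => by
    rw [M.top ⟨b, hZ4 hb⟩ hb hb3, M.top ⟨b, hZ4 hb⟩ hb hb3]))
  have hz : (φ : T)⁻¹ * b ∈ Z T 3 := by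
    have h' := (M.eq_iff φ⁻¹ (⟨b, hZ4 hb⟩ : W T)⁻¹).1 (by rw [M.inv, M.inv, hφb])
    simpa only [Subgroup.coe_inv, inv_inv] using h'
  set z := (φ : T)⁻¹ * b with hzdef
  have hbz : b = φ * z := by rw [hzdef, mul_inv_cancel_left]
  let Mz : Subgroup T :=
    (Subgroup.centralizer ({((b : T) : T ⧸ Z T 1)} : Set (T ⧸ Z T 1))).comap (QuotientGroup.mk' (Z T 1))
  have hMz : ∀ t : T, t ∈ Mz ↔ t * b * t⁻¹ * b⁻¹ ∈ Z T 1 := fun t => by
    rw [Subgroup.mem_comap, Subgroup.mem_centralizer_singleton_iff, ← QuotientGroup.eq_one_iff,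
      QuotientGroup.mk_mul, QuotientGroup.mk_mul, QuotientGroup.mk_mul, QuotientGroup.mk_inv, QuotientGroup.mk_inv,
      mul_inv_eq_one, mul_inv_eq_iff_eq_mul]
    rfl
  have hW'M : W' ≤ Mz := fun x hx => by
    rw [hMz, hbz]
    have e1 : x * ((φ : T) * z) * x⁻¹ * ((φ : T) * z)⁻¹ = (φ : T) * (x * z * x⁻¹ * z⁻¹) * (φ : T)⁻¹ := by
      calc x * ((φ : T) * z) * x⁻¹ * ((φ : T) * z)⁻¹ = (x * φ) * z * x⁻¹ * z⁻¹ * (φ : T)⁻¹ := by group
        _ = (φ * x) * z * x⁻¹ * z⁻¹ * (φ : T)⁻¹ := by rw [hcent φ hφ x hx]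
        _ = _ := by group
    rw [e1]
    exact (inferInstance : (Z T 1).Normal).conj_mem _ (hxz x hx z hz) _
  have hWM : W T ≤ Mz := fun w hw => by
    rw [hMz]
    have hh : w * b * w⁻¹ * b⁻¹ ∈ Z T 3 := M.comm_mem hw (hZ4 hb)
    refine hfixed _ hh fun x hx => ?_
    have hwx : x * w * x⁻¹ ∈ W T := W_normal.conj_mem _ hw x
    set u := w⁻¹ * (x * w * x⁻¹) with hudef
    have huW : u ∈ W T := mul_mem (inv_mem hw) hwx
    have huW' : u ∈ W' := by
      by_cases hxW : x ∈ W T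
      · exact hZ3W' (by
          have := M.comm_mem (inv_mem hw) hxW
          rwa [inv_inv, show w⁻¹ * x * w * x⁻¹ = u by rw [hudef]; group] at this)
      · have hxx : (x : T ⧸ W T) * (x : T ⧸ W T) = 1 := by
          rw [← QuotientGroup.mk_mul, QuotientGroup.eq_one_iff]
          exact hΦ'W (hsq x hx)
        have hψu : M.ψ ⟨u, huW⟩ = M.ψ ⟨w, hw⟩ + M.ψ ⟨x * w * x⁻¹, hwx⟩ := by
          rw [show (⟨u, huW⟩ : W T) = (⟨w, hw⟩ : W T)⁻¹ * ⟨x * w * x⁻¹, hwx⟩ from rfl, M.add, M.inv]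
        have hk : M.ψ ⟨u, huW⟩ ∈ (D x).ker := by
          rw [AddMonoidHom.mem_ker]
          funext q
          show M.ψ ⟨u, huW⟩ q + M.ψ ⟨u, huW⟩ (q * (x : T ⧸ W T)) = 0
          rw [hψu, Pi.add_apply, Pi.add_apply, M.act x ⟨w, hw⟩, M.act x ⟨w, hw⟩, mul_assoc q, hxx, mul_one,
            add_comm (M.ψ ⟨w, hw⟩ (q * (x : T ⧸ W T)))]
          exact zmod_two_add _
        obtain ⟨v, hv, hvu⟩ := (hUmem _).1 (hkerU x hx hxW hk)
        have h' := (M.eq_iff ⟨u, huW⟩ v).1 hvu.symm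
        have := W'.mul_mem (hZ3W' h') hv
        rwa [inv_mul_cancel_right] at this
    have hub : u * b = b * u := by
      rw [hbz]
      calc u * ((φ : T) * z) = (u * φ) * z := by group
        _ = (φ * u) * z := by rw [hcent φ hφ u huW']
        _ = φ * (u * z) := by group
        _ = φ * (z * u) := by rw [W_central hz huW]
        _ = φ * z * u := by group
    have hc : x * b * x⁻¹ * b⁻¹ ∈ Z T 1 := (hMz x).1 (hW'M hx)
    set c := x * b * x⁻¹ * b⁻¹ with hcdef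
    calc x * (w * b * w⁻¹ * b⁻¹) * x⁻¹ = (x * w * x⁻¹) * (x * b * x⁻¹) * (x * w * x⁻¹)⁻¹ * (x * b * x⁻¹)⁻¹ := by group
      _ = (w * u) * (c * b) * (w * u)⁻¹ * (c * b)⁻¹ := by rw [hcdef, hudef]; group
      _ = ((w * u) * c) * b * (w * u)⁻¹ * b⁻¹ * c⁻¹ := by group
      _ = (c * (w * u)) * b * (w * u)⁻¹ * b⁻¹ * c⁻¹ := by rw [Z_one_central hc (w * u)]
      _ = c * (w * (u * b) * u⁻¹ * w⁻¹ * b⁻¹) * c⁻¹ := by group
      _ = c * (w * (b * u) * u⁻¹ * w⁻¹ * b⁻¹) * c⁻¹ := by rw [hub]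
      _ = c * (w * b * w⁻¹ * b⁻¹) * c⁻¹ := by group
      _ = w * b * w⁻¹ * b⁻¹ := by rw [← Z_one_central hc (w * b * w⁻¹ * b⁻¹), mul_inv_cancel_right]
  -- the final contradiction
  refine hb3 (mem_succ.2 fun t => ?_)
  set c := t * b * t⁻¹ * b⁻¹ with hcdef
  have hc3 : c ∈ Z T 3 := mem_succ.1 hb t
  by_contra hc2
  have htt : t * t ∈ Mz := by
    have hidxQ : Q₀.index = 2 := by
      have := Q₀.card_mul_index
      rw [hQ4, ← Subgroup.index_eq_card, hidx] at this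
      omega
    obtain ⟨x, hx, hxe⟩ := Subgroup.mul_self_mem_of_index_two hidxQ (t : T ⧸ W T)
    have hm : x⁻¹ * (t * t) ∈ W T := QuotientGroup.eq.1 ((hxe : (x : T ⧸ W T) = _).trans (QuotientGroup.mk_mul _ t t).symm)
    have := Mz.mul_mem (hW'M hx) (hWM hm)
    rwa [mul_inv_cancel_left] at this
  have hd2 : t * c * t⁻¹ * c⁻¹ ∈ Z T 2 := mem_succ.1 hc3 t
  have hd1 : t * c * t⁻¹ * c⁻¹ ∈ Z T 1 := by
    have h' := (hMz _).1 htt
    rw [show t * t * b * (t * t)⁻¹ * b⁻¹ = (t * c * t⁻¹) * c by rw [hcdef]; group] at h'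
    rw [inv_eq_of_mul_eq_one_right (hel c hc3)]
    exact h'
  have hc3' : t * z₃ * t⁻¹ * z₃⁻¹ ∈ Z T 1 := by
    have hδ := coset_two h (i := 2) (by norm_num) hc3 hc2 hz₃ hz₃'
    set δ := c⁻¹ * z₃ with hδdef
    have hδ1 : t * δ * t⁻¹ * δ⁻¹ ∈ Z T 1 := mem_succ.1 hδ t
    have e1 : t * z₃ * t⁻¹ * z₃⁻¹ = (t * c * t⁻¹) * (t * δ * t⁻¹ * δ⁻¹) * c⁻¹ := by rw [hδdef]; group
    rw [e1, show (t * c * t⁻¹) * (t * δ * t⁻¹ * δ⁻¹) * c⁻¹ = (t * c * t⁻¹ * c⁻¹) * (c * (t * δ * t⁻¹ * δ⁻¹) * c⁻¹) by group]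
    exact mul_mem hd1 ((inferInstance : (Z T 1).Normal).conj_mem _ hδ1 c)
  obtain ⟨x, hx, hx2, hx3⟩ := hcoord _ (mem_succ.1 hz₂ t) _ hc3'
  have hxt : x⁻¹ * t ∈ W T := by
    have key : ∀ z' : T, x * z' * x⁻¹ = t * z' * t⁻¹ → x⁻¹ * t * z' = z' * (x⁻¹ * t) := by
      intro z' hz'
      calc x⁻¹ * t * z' = x⁻¹ * (t * z' * t⁻¹) * t := by group
        _ = x⁻¹ * (x * z' * x⁻¹) * t := by rw [hz']
        _ = z' * (x⁻¹ * t) := by group
    exact (hW _).2 ⟨key z₂ (mul_right_cancel hx2), key z₃ (mul_right_cancel hx3)⟩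
  have htM : t ∈ Mz := by
    have := Mz.mul_mem (hW'M hx) (hWM hxt)
    rwa [mul_inv_cancel_left] at this
  exact hc2 (Subgroup.upperCentralSeries_mono (G := T) (by norm_num : 1 ≤ 2) ((hMz t).1 htM))

end Cfsg.Lib.TwoGroup.BigCentre
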